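import Mathlib
import Cfsg.Agent.Base

/-! Kilmoyer-Solomon proof of the Feit-Higman theorem: the algebraic part. -/

set_option autoImplicit false

namespace H81.FH

open Matrix Finset

/-- alternating product `a b a ...` with `n` factors -/
def alt {M : Type*} [Monoid M] (a b : M) : ℕ → M
  | 0 => 1
  | n + 1 => a * alt b a n

theorem alt_eq_def_aux {M : Type*} [Monoid M] (a b : M) (n : ℕ) : True := by
  have := alt.eq_def a b n
  trivial

theorem alt_zero {M : Type*} [Monoid M] (a b : M) : alt a b 0 = 1 := rfl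

theorem alt_succ {M : Type*} [Monoid M] (a b : M) (n : ℕ) : alt a b (n + 1) = a * alt b a n := rfl

theorem alt_even {M : Type*} [Monoid M] (a b : M) (k : ℕ) : alt a b (2 * k) = (a * b) ^ k := by
  induction k with
  | zero => simp [alt_zero]
  | succ k ih =>
    rw [show 2 * (k + 1) = 2 * k + 1 + 1 by ring, alt_succ, alt_succ, ih, pow_succ', mul_assoc]

theorem alt_odd {M : Type*} [Monoid M] (a b : M) (k : ℕ) :
    alt a b (2 * k + 1) = (a * b) ^ k * a := by
  induction k with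
  | zero => simp [alt_succ, alt_zero]
  | succ k ih =>
    rw [show 2 * (k + 1) + 1 = 2 * k + 1 + 1 + 1 by ring, alt_succ, alt_succ, ih, pow_succ']
    simp only [mul_assoc]

section Alg

variable {R : Type*} [Ring R] [Algebra ℂ R]

/-- Chebyshev-like sequence -/
noncomputable def cheb (Z : R) (q : ℂ) : ℕ → R
  | 0 => 0
  | 1 => 1
  | k + 2 => cheb Z q (k + 1) * Z - q • cheb Z q k

theorem cheb_eq_def_aux (Z : R) (q : ℂ) (n : ℕ) : True := by
  have := cheb.eq_def Z q n
  trivial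

theorem cheb_succ (Z : R) (q : ℂ) (k : ℕ) :
    cheb Z q (k + 2) = cheb Z q (k + 1) * Z - q • cheb Z q k := rfl

theorem pow_cheb {Z T : R} {q : ℂ} (h : T * T = Z * T - q • (1 : R)) (k : ℕ) :
    T ^ (k + 1) = cheb Z q (k + 1) * T - q • cheb Z q k := by
  induction k with
  | zero =>
    have h1 : cheb Z q 1 = 1 := rfl
    have h0 : cheb Z q 0 = 0 := rfl
    simp [h1, h0]
  | succ k ih =>
    rw [pow_succ, ih, cheb_succ, sub_mul, mul_assoc, h]
    simp only [mul_sub, sub_mul, mul_assoc, smul_mul_assoc, mul_smul_comm, mul_one]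
    abel

variable (a b : R) (s t : ℂ)

/-- `st (ab)⁻¹` -/
noncomputable def Tb : R := b * a - (s - 1) • b - (t - 1) • a + ((s - 1) * (t - 1)) • (1 : R)

/-- the central element -/
noncomputable def Zc : R := a * b + Tb a b s t

/-- kills the linear characters -/
noncomputable def Yc : R := ((s * t + 1) • (1 : R) - Zc a b s t) * ((s + t) • (1 : R) + Zc a b s t)

variable {a b s t}

section
variable (ha : a * a = (s - 1) • a + s • (1 : R)) (hb : b * b = (t - 1) • b + t • (1 : R))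
include ha hb

omit hb in
theorem aa (x : R) : a * (a * x) = (s - 1) • (a * x) + s • x := by
  rw [← mul_assoc, ha, add_mul, smul_mul_assoc, smul_mul_assoc, one_mul]

theorem T_Tb : (a * b) * Tb a b s t = (s * t) • (1 : R) := by
  simp only [Tb, mul_add, add_mul, mul_sub, sub_mul, mul_assoc, aa ha, aa hb, ha, hb,
    smul_mul_assoc, mul_smul_comm, mul_one, one_mul]
  module

theorem Tb_T : Tb a b s t * (a * b) = (s * t) • (1 : R) := by
  simp only [Tb, mul_add, add_mul, mul_sub, sub_mul, mul_assoc, aa ha, aa hb, ha, hb,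
    smul_mul_assoc, mul_smul_comm, mul_one, one_mul]
  module

theorem Z_a : Zc a b s t * a = a * Zc a b s t := by
  simp only [Zc, Tb, mul_add, add_mul, mul_sub, sub_mul, mul_assoc, aa ha, aa hb, ha, hb,
    smul_mul_assoc, mul_smul_comm, mul_one, one_mul]
  module

theorem Z_b : Zc a b s t * b = b * Zc a b s t := by
  simp only [Zc, Tb, mul_add, add_mul, mul_sub, sub_mul, mul_assoc, aa ha, aa hb, ha, hb,
    smul_mul_assoc, mul_smul_comm, mul_one, one_mul]
  module

theorem Y_eq : Yc a b s t = -((a * b - b * a) * (a * b - b * a)) := by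
  simp only [Yc, Zc, Tb, mul_add, add_mul, mul_sub, sub_mul, mul_assoc, aa ha, aa hb, ha, hb,
    smul_mul_assoc, mul_smul_comm, mul_one, one_mul]
  module

theorem Y_a : Commute (Yc a b s t) a := by
  have h : Commute (Zc a b s t) a := Z_a ha hb
  unfold Yc
  refine Commute.mul_left (Commute.sub_left ?_ h) (Commute.add_left ?_ h) <;>
    exact Commute.smul_left (Commute.one_left _) _

theorem Y_b : Commute (Yc a b s t) b := by
  have h : Commute (Zc a b s t) b := Z_b ha hb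
  unfold Yc
  refine Commute.mul_left (Commute.sub_left ?_ h) (Commute.add_left ?_ h) <;>
    exact Commute.smul_left (Commute.one_left _) _

theorem Y_T : Commute (Yc a b s t) (a * b) := (Y_a ha hb).mul_right (Y_b ha hb)

theorem Y_Tb : Commute (Yc a b s t) (Tb a b s t) := by
  unfold Tb
  refine Commute.add_right (Commute.sub_right (Commute.sub_right
    ((Y_b ha hb).mul_right (Y_a ha hb)) ((Y_b ha hb).smul_right _)) ((Y_a ha hb).smul_right _))
    ((Commute.one_right _).smul_right _)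

theorem TT : (a * b) * (a * b) = Zc a b s t * (a * b) - (s * t) • (1 : R) := by
  rw [Zc, add_mul, Tb_T ha hb]; abel

theorem TT' : (b * a) * (b * a) = Zc a b s t * (b * a) - (s * t) • (1 : R) := by
  simp only [Zc, Tb, mul_add, add_mul, mul_sub, sub_mul, mul_assoc, aa ha, aa hb, ha, hb,
    smul_mul_assoc, mul_smul_comm, mul_one, one_mul]
  module

theorem TbTb : Tb a b s t * Tb a b s t = Zc a b s t * Tb a b s t - (s * t) • (1 : R) := by
  rw [Zc, add_mul, T_Tb ha hb]; abel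

theorem pow_mul_Tb_pow (k : ℕ) : (a * b) ^ k * Tb a b s t ^ k = (s * t) ^ k • (1 : R) := by
  have hc : Commute (a * b) (Tb a b s t) := by
    rw [Commute, SemiconjBy, T_Tb ha hb, Tb_T ha hb]
  rw [← hc.mul_pow, T_Tb ha hb, smul_pow, one_pow]

theorem pow_Y_even (k : ℕ) (h : alt a b (2 * (k + 1)) = alt b a (2 * (k + 1))) :
    (a * b) ^ (2 * (k + 1)) * Yc a b s t = (s * t) ^ (k + 1) • Yc a b s t := by
  rw [alt_even, alt_even, pow_cheb (TT ha hb), pow_cheb (TT' ha hb), sub_left_inj] at h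
  have h1 : cheb (Zc a b s t) (s * t) (k + 1) * Yc a b s t = 0 := by
    rw [Y_eq ha hb, mul_neg, ← mul_assoc, mul_sub (cheb _ _ _), h, sub_self, zero_mul, neg_zero]
  have h2 : (a * b) ^ (k + 1) * Yc a b s t = Tb a b s t ^ (k + 1) * Yc a b s t := by
    rw [pow_cheb (TT ha hb), pow_cheb (TbTb ha hb), sub_mul, sub_mul, mul_assoc, mul_assoc _ (Tb _ _ _ _),
      ← (Y_T ha hb).eq, ← (Y_Tb ha hb).eq, ← mul_assoc, ← mul_assoc, ← mul_assoc, h1]
    simp
  rw [two_mul, pow_add, mul_assoc, h2, ← mul_assoc, pow_mul_Tb_pow ha hb, smul_mul_assoc, one_mul]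

end

theorem pow_Y_odd (ha : a * a = (s - 1) • a + s • (1 : R)) (hb : b * b = (s - 1) • b + s • (1 : R))
    (hs : s ≠ 0) (j : ℕ) (h : alt a b (2 * (j + 1) + 1) = alt b a (2 * (j + 1) + 1)) :
    (a * b) ^ (2 * (j + 1) + 1) * Yc a b s s = s ^ (2 * (j + 1) + 1) • Yc a b s s := by
  rw [alt_odd, alt_odd, pow_cheb (TT ha hb), pow_cheb (TT' ha hb)] at h
  set Z := Zc a b s s with hZ
  set p := cheb Z (s * s) with hp
  set Y1 := (s * s + 1) • (1 : R) - Z with hY1
  have e1 : a * b * a - b * a * b = (Z + s • (1 : R)) * (a - b) := by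
    simp only [hZ, Zc, Tb, mul_add, add_mul, mul_sub, sub_mul, mul_assoc, aa ha, aa hb, ha, hb,
      smul_mul_assoc, mul_smul_comm, mul_one, one_mul]
    module
  have e2 : Y1 = (a - b) * (a - b) := by
    simp only [hY1, hZ, Zc, Tb, mul_add, add_mul, mul_sub, sub_mul, mul_assoc, aa ha, aa hb, ha, hb,
      smul_mul_assoc, mul_smul_comm, mul_one, one_mul]
    module
  have h0 : (p (j + 2) + s • p (j + 1)) * (a - b) = 0 := by
    have h' : p (j + 1) * (a * b * a - b * a * b) - (s * s) • (p j * (a - b)) = 0 := by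
      rw [← sub_eq_zero] at h
      rw [← h]
      simp only [mul_sub, sub_mul, mul_assoc, smul_mul_assoc, smul_sub]
      abel
    rw [e1] at h'
    rw [← h', hp, cheb_succ]
    simp only [mul_add, add_mul, sub_mul, mul_assoc, smul_mul_assoc, mul_smul_comm, one_mul]
    abel
  have h1 : (p (j + 2) + s • p (j + 1)) * Y1 = 0 := by
    rw [e2, ← mul_assoc, h0, zero_mul]
  have cZa : Commute Z a := Z_a ha hb
  have cZb : Commute Z b := Z_b ha hb
  have cT : Commute Y1 (a * b) :=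
    Commute.sub_left ((Commute.one_left _).smul_left _) (cZa.mul_right cZb)
  have cTb : Commute Y1 (Tb a b s s) := by
    refine Commute.sub_left ((Commute.one_left _).smul_left _) ?_
    unfold Tb
    exact Commute.add_right (Commute.sub_right (Commute.sub_right
      (cZb.mul_right cZa) (cZb.smul_right _)) (cZa.smul_right _))
      ((Commute.one_right _).smul_right _)
  have key : ∀ U : R, U * U = Z * U - (s * s) • (1 : R) → Commute Y1 U →
      (U ^ (j + 2) + s • U ^ (j + 1)) * Y1 = -((s * s) • ((p (j + 1) + s • p j) * Y1)) := by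
    intro U hU hc
    have h3 : (p (j + 2) + s • p (j + 1)) * U * Y1 = 0 := by
      rw [mul_assoc, ← hc.eq, ← mul_assoc, h1, zero_mul]
    rw [pow_cheb hU (j + 1), pow_cheb hU j, ← sub_eq_zero, ← h3]
    simp only [hp, add_mul, sub_mul, smul_mul_assoc, smul_sub, smul_add]
    module
  have h2 := (key _ (TT ha hb) cT).trans (key _ (TbTb ha hb) cTb).symm
  have h4 : (a * b) ^ (2 * (j + 1) + 1) * ((a * b + s • (1 : R)) * Y1)
      = s ^ (2 * (j + 1) + 1) • ((a * b + s • (1 : R)) * Y1) := by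
    have h5 := congrArg (fun x => (a * b) ^ (j + 2) * x) h2
    simp only [← mul_assoc] at h5
    have e3 : (a * b) ^ (j + 2) * ((a * b) ^ (j + 2) + s • (a * b) ^ (j + 1))
        = (a * b) ^ (2 * (j + 1) + 1) * (a * b + s • (1 : R)) := by
      rw [mul_add, mul_add, mul_smul_comm, mul_smul_comm, mul_one, ← pow_add, ← pow_add, ← pow_succ,
        show j + 2 + (j + 2) = 2 * (j + 1) + 1 + 1 by ring, show j + 2 + (j + 1) = 2 * (j + 1) + 1 by ring]
    have e4 : (a * b) ^ (j + 2) * (Tb a b s s ^ (j + 2) + s • Tb a b s s ^ (j + 1))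
        = s ^ (2 * (j + 1) + 1) • (a * b + s • (1 : R)) := by
      rw [mul_add, mul_smul_comm, pow_mul_Tb_pow ha hb, pow_succ' (a * b) (j + 1), mul_assoc,
        pow_mul_Tb_pow ha hb, mul_smul_comm, mul_one]
      module
    rw [e3, e4] at h5
    rw [← mul_assoc, h5, smul_mul_assoc]
  have e5 : (s * s) • Yc a b s s
      = ((a * b + s • (1 : R)) * Y1) * ((a * b + s • (1 : R)) * Tb a b s s) := by
    have c1 : Commute Y1 (a * b + s • (1 : R)) := cT.add_right ((Commute.one_right _).smul_right _)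
    have e6 : (a * b + s • (1 : R)) * ((a * b + s • (1 : R)) * Tb a b s s)
        = (s * s) • ((s + s) • (1 : R) + Z) := by
      rw [add_mul (a * b) _ (Tb a b s s), T_Tb ha hb, hZ, Zc]
      simp only [mul_add, add_mul, smul_mul_assoc, mul_smul_comm, mul_one, one_mul, T_Tb ha hb]
      module
    rw [← c1.eq, mul_assoc Y1, e6, mul_smul_comm]
    rfl
  have h6 : (s * s) • ((a * b) ^ (2 * (j + 1) + 1) * Yc a b s s)
      = (s * s) • (s ^ (2 * (j + 1) + 1) • Yc a b s s) := by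
    rw [← mul_smul_comm, e5, ← mul_assoc, h4, smul_mul_assoc, ← e5, smul_comm]
  exact smul_right_injective R (mul_ne_zero hs hs) h6

end Alg

section Mat

variable {X : Type*} [Fintype X] [DecidableEq X]

theorem exists_trace_eq {F : Matrix X X ℂ} {y : ℂ} (h : F * F = y • F) :
    ∃ μ : ℕ, F.trace = μ * y := by
  by_cases hy : y = 0
  · refine ⟨0, ?_⟩
    have : IsNilpotent F := ⟨2, by rw [pow_two, h, hy, zero_smul]⟩
    simpa using (Matrix.isNilpotent_trace_of_isNilpotent this).eq_zero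
  · have hi : IsIdempotentElem (Matrix.toLin' (y⁻¹ • F)) := by
      rw [IsIdempotentElem, Module.End.mul_eq_comp, ← Matrix.toLin'_mul, smul_mul_assoc,
        mul_smul_comm, h, smul_smul, smul_smul, inv_mul_cancel_right₀ hy]
    have ht := ((LinearMap.isProj_range_iff_isIdempotentElem _).2 hi).trace
    rw [Matrix.trace_toLin'_eq, Matrix.trace_smul, smul_eq_mul] at ht
    refine ⟨Module.finrank ℂ ↥(LinearMap.range (Matrix.toLin' (y⁻¹ • F))), ?_⟩
    rw [← ht]; field_simp

variable {a b : Matrix X X ℂ} {s t : ℂ}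
variable (ha : a * a = (s - 1) • a + s • (1 : Matrix X X ℂ))
  (hb : b * b = (t - 1) • b + t • (1 : Matrix X X ℂ))
include ha hb

theorem trace_Y (hta : a.trace = 0) (htb : b.trace = 0) (hab : (a * b).trace = 0)
    (hab2 : ((a * b) ^ 2).trace = 0) :
    (Yc a b s t).trace = 2 * (s * t) * Fintype.card X := by
  have e : Yc a b s t = -((a * b) ^ 2) - b * (a * b * a) + a * (b * b * a) + b * (a * a * b) := by
    rw [Y_eq ha hb]; noncomm_ring
  have e1 : (b * (a * b * a)).trace = 0 := by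
    rw [trace_mul_comm, ← hab2, pow_two]; simp only [mul_assoc]
  have e2 : (a * a * (b * b)).trace = s * t * Fintype.card X := by
    rw [ha, hb]
    simp only [mul_add, add_mul, smul_mul_assoc, mul_smul_comm, mul_one, one_mul, trace_add,
      trace_smul, hta, htb, hab, trace_one, smul_eq_mul]
    ring
  have e3 : (a * (b * b * a)).trace = s * t * Fintype.card X := by
    rw [trace_mul_comm, mul_assoc, trace_mul_comm, e2]
  have e4 : (b * (a * a * b)).trace = s * t * Fintype.card X := by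
    rw [trace_mul_comm, mul_assoc, e2]
  rw [e, trace_add, trace_add, trace_sub, trace_neg, hab2, e1, e3, e4]; ring

theorem trace_Y_Tb : (Yc a b s t * Tb a b s t).trace = (Yc a b s t * (a * b)).trace := by
  set C := a * b - b * a with hC
  have ea : C * a + a * C = (s - 1) • C := by
    simp only [hC, mul_add, add_mul, mul_sub, sub_mul, mul_assoc, aa ha, aa hb, ha, hb,
      smul_mul_assoc, mul_smul_comm, mul_one, one_mul]
    module
  have eb : C * b + b * C = (t - 1) • C := by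
    simp only [hC, mul_add, add_mul, mul_sub, sub_mul, mul_assoc, aa ha, aa hb, ha, hb,
      smul_mul_assoc, mul_smul_comm, mul_one, one_mul]
    module
  have key : ∀ (u : Matrix X X ℂ) (c : ℂ), C * u + u * C = c • C →
      2 * (Yc a b s t * u).trace = c * (Yc a b s t).trace := by
    intro u c hu
    have h1 := congrArg (fun x => (C * x).trace) hu
    simp only [mul_add, trace_add, mul_smul_comm, trace_smul, smul_eq_mul] at h1
    rw [trace_mul_comm C (u * C), mul_assoc, trace_mul_comm u, mul_assoc] at h1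
    rw [Y_eq ha hb, ← hC, neg_mul, trace_neg, trace_neg, mul_assoc]
    linear_combination -h1
  have h1 := key a _ ea
  have h2 := key b _ eb
  have h3 : (Yc a b s t * (b * a)).trace = (Yc a b s t * (a * b)).trace := by
    rw [← mul_assoc, trace_mul_comm, ← mul_assoc, ← (Y_a ha hb).eq, mul_assoc]
  simp only [Tb, mul_add, mul_sub, mul_smul_comm, mul_one, trace_add, trace_sub, trace_smul,
    smul_eq_mul, h3]
  linear_combination (-(s - 1) / 2) * h2 - (t - 1) / 2 * h1

theorem Y_mul_T : Yc a b s t * (a * b) = ((s * t + 1) * (s + t) - 2 * (s * t)) • (a * b)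
    + ((s - 1) * (t - 1)) • ((a * b) ^ 2 + (s * t) • (1 : Matrix X X ℂ)) - (a * b) ^ 3
    - (s * t) • Tb a b s t := by
  have h1 := T_Tb ha hb
  have h2 := Tb_T ha hb
  unfold Yc Zc
  generalize Tb a b s t = U at *
  generalize a * b = T at *
  have h3 : ∀ x : Matrix X X ℂ, U * (T * x) = (s * t) • x := fun x => by
    rw [← mul_assoc, h2, smul_mul_assoc, one_mul]
  have h4 : ∀ x : Matrix X X ℂ, T * (U * x) = (s * t) • x := fun x => by
    rw [← mul_assoc, h1, smul_mul_assoc, one_mul]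
  simp only [pow_succ, pow_zero, mul_add, add_mul, mul_sub, sub_mul, mul_assoc, h1, h2, h3, h4,
    smul_mul_assoc, mul_smul_comm, mul_one, one_mul]
  module

theorem Y_mul_pow (k : ℕ) : Yc a b s t * (a * b) ^ (k + 2)
    = ((s * t + 1) * (s + t) - 2 * (s * t)) • (a * b) ^ (k + 2)
    + ((s - 1) * (t - 1)) • ((a * b) ^ (k + 3) + (s * t) • (a * b) ^ (k + 1)) - (a * b) ^ (k + 4)
    - (s * t) ^ 2 • (a * b) ^ k := by
  rw [pow_succ' _ (k + 1), ← mul_assoc, Y_mul_T ha hb]
  have h2 : Tb a b s t * (a * b) ^ (k + 1) = (s * t) • (a * b) ^ k := by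
    rw [pow_succ', ← mul_assoc, Tb_T ha hb, smul_mul_assoc, one_mul]
  simp only [add_mul, sub_mul, smul_mul_assoc, one_mul, h2, ← pow_add, ← pow_succ']
  rw [show 2 + (k + 1) = k + 3 by ring, show 3 + (k + 1) = k + 4 by ring]
  module

theorem exists_mult (m : ℕ) (r ω : ℂ) (hr : r * r = s * t) (hr0 : r ≠ 0) (hω : ω ^ (m + 5) = 1)
    (hta : a.trace = 0) (htb : b.trace = 0)
    (h0 : ∀ k, 0 < k → k < m + 5 → ((a * b) ^ k).trace = 0)
    (hm : ((a * b) ^ (m + 5)).trace = r ^ (m + 5) * Fintype.card X)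
    (hY : (a * b) ^ (m + 5) * Yc a b s t = r ^ (m + 5) • Yc a b s t) :
    ∃ μ : ℕ, (μ : ℂ) * (m + 5 : ℕ) * ((s * t + 1 - r * (ω + ω⁻¹)) * (s + t + r * (ω + ω⁻¹)))
      = Fintype.card X * (4 * (s * t) - (r * (ω + ω⁻¹)) ^ 2) := by
  have hω0 : ω ≠ 0 := by
    rintro rfl
    simp at hω
  set Y := Yc a b s t with hYd
  set T := a * b with hT
  have hc : Commute Y T := Y_T ha hb
  set l := r * ω with hl
  have hl0 : l ≠ 0 := mul_ne_zero hr0 hω0
  set e : Matrix X X ℂ := ∑ k ∈ range (m + 5), (l⁻¹ ^ k) • T ^ k with he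
  set F := Y * e with hF
  have hFs : F = ∑ k ∈ range (m + 5), (l⁻¹ ^ k) • (Y * T ^ k) := by
    rw [hF, he, Finset.mul_sum]; simp only [mul_smul_comm]
  have hTF : T * F = l • F := by
    have h1 := Finset.sum_range_succ (fun k => (l⁻¹ ^ k) • (Y * T ^ k)) (m + 5)
    rw [Finset.sum_range_succ'] at h1
    have h2 : l⁻¹ ^ (m + 5) • (Y * T ^ (m + 5)) = l⁻¹ ^ 0 • (Y * T ^ 0) := by
      rw [(hc.pow_right _).eq, hY, smul_smul, hl, inv_pow, mul_pow, hω]
      simp [hr0]
    rw [h2, add_left_inj, ← hFs] at h1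
    conv_rhs => rw [← h1]
    rw [hFs, Finset.mul_sum, Finset.smul_sum]
    refine Finset.sum_congr rfl fun k _ => ?_
    rw [mul_smul_comm, smul_smul, ← mul_assoc, ← hc.eq, mul_assoc, ← pow_succ', pow_succ' l⁻¹,
      mul_inv_cancel_left₀ hl0]
  have hTk : ∀ k, T ^ k * F = l ^ k • F := by
    intro k
    induction k with
    | zero => simp
    | succ k ih => rw [pow_succ, mul_assoc, hTF, mul_smul_comm, ih, smul_smul, pow_succ']
  have heF : e * F = ((m + 5 : ℕ) : ℂ) • F := by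
    rw [he, Finset.sum_mul]
    have : ∀ k ∈ range (m + 5), (l⁻¹ ^ k • T ^ k) * F = F := by
      intro k _
      rw [smul_mul_assoc, hTk, smul_smul, ← mul_pow, inv_mul_cancel₀ hl0, one_pow, one_smul]
    rw [Finset.sum_congr rfl this, Finset.sum_const, Finset.card_range, Nat.cast_smul_eq_nsmul]
  have hTbF : Tb a b s t * F = (r * ω⁻¹) • F := by
    have h1 : l • (Tb a b s t * F) = l • ((r * ω⁻¹) • F) := by
      rw [← mul_smul_comm, ← hTF, ← mul_assoc, Tb_T ha hb, smul_mul_assoc, one_mul, smul_smul,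
        ← hr, hl]
      congr 1
      field_simp
    exact smul_right_injective _ hl0 h1
  have hZF : Zc a b s t * F = (r * (ω + ω⁻¹)) • F := by
    rw [Zc, add_mul, hTbF, ← hT, hTF, hl]; module
  have hYF : Y * F = ((s * t + 1 - r * (ω + ω⁻¹)) * (s + t + r * (ω + ω⁻¹))) • F := by
    rw [hYd, Yc, mul_assoc, add_mul, hZF]
    simp only [mul_add, sub_mul, smul_mul_assoc, mul_smul_comm, one_mul, hZF]
    module
  have hFF : F * F = (((m + 5 : ℕ) : ℂ)
      * ((s * t + 1 - r * (ω + ω⁻¹)) * (s + t + r * (ω + ω⁻¹)))) • F := by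
    conv_lhs => rw [hF, mul_assoc, ← hF, heF, mul_smul_comm, hYF, smul_smul]
  obtain ⟨μ, hμ⟩ := exists_trace_eq hFF
  refine ⟨μ, ?_⟩
  rw [mul_assoc, ← hμ, hFs, trace_sum]
  have t1 : T.trace = 0 := by simpa using h0 1 (by omega) (by omega)
  have g0 : (Y * T ^ 0).trace = 2 * (s * t) * Fintype.card X := by
    rw [pow_zero, mul_one]; exact trace_Y ha hb hta htb t1 (h0 2 (by omega) (by omega))
  have g1 : (Y * T).trace = 0 := by
    have tb : (Tb a b s t).trace = (s - 1) * (t - 1) * Fintype.card X := by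
      simp only [Tb, trace_add, trace_sub, trace_smul, trace_one, hta, htb, smul_eq_mul,
        trace_mul_comm b a, ← hT, t1]
      ring
    rw [hYd, hT, Y_mul_T ha hb]
    simp only [trace_add, trace_sub, trace_smul, trace_one, smul_eq_mul, ← hT, t1, tb,
      h0 2 (by omega) (by omega), h0 3 (by omega) (by omega)]
    ring
  have gk : ∀ k, (Y * T ^ (k + 2)).trace = ((s * t + 1) * (s + t) - 2 * (s * t)) * (T ^ (k + 2)).trace
      + ((s - 1) * (t - 1)) * ((T ^ (k + 3)).trace + (s * t) * (T ^ (k + 1)).trace)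
      - (T ^ (k + 4)).trace - (s * t) ^ 2 * (T ^ k).trace := by
    intro k
    rw [hYd, hT, Y_mul_pow ha hb]
    simp only [trace_add, trace_sub, trace_smul, smul_eq_mul]
  have g2 : (Y * T ^ 2).trace = -((s * t) ^ 2 * Fintype.card X) := by
    have := gk 0
    rw [h0 (0 + 2) (by omega) (by omega), h0 (0 + 3) (by omega) (by omega),
      h0 (0 + 1) (by omega) (by omega), h0 (0 + 4) (by omega) (by omega)] at this
    rw [this]; simp
  have gmid : ∀ k ∈ range m, (l⁻¹ ^ (k + 1 + 1 + 1) • (Y * T ^ (k + 1 + 1 + 1))).trace = 0 := by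
    intro k hk
    rw [Finset.mem_range] at hk
    rw [trace_smul, gk (k + 1), h0 _ (by omega) (by omega), h0 _ (by omega) (by omega),
      h0 _ (by omega) (by omega), h0 _ (by omega) (by omega), h0 _ (by omega) (by omega)]
    simp
  have gm2 : (Y * T ^ (m + 3)).trace = -(r ^ (m + 5) * Fintype.card X) := by
    rw [gk (m + 1), h0 _ (by omega) (by omega), h0 _ (by omega) (by omega),
      h0 _ (by omega) (by omega), hm, h0 _ (by omega) (by omega)]
    simp
  have gm1 : (Y * T ^ (m + 4)).trace = 0 := by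
    have h1 : (s * t) • (Y * T ^ (m + 4)) = r ^ (m + 5) • (Y * Tb a b s t) := by
      rw [← smul_mul_assoc (r ^ (m + 5)), ← hY, ← (hc.pow_right _).eq, pow_succ T (m + 4), mul_assoc,
        mul_assoc, hT, T_Tb ha hb, mul_smul_comm, mul_smul_comm, mul_one]
    have h2 := congrArg Matrix.trace h1
    rw [trace_smul, trace_smul, hYd, trace_Y_Tb ha hb, ← hYd, ← hT, g1, smul_zero, smul_eq_mul,
      ← hr] at h2
    exact (mul_eq_zero.1 h2).resolve_left (mul_ne_zero hr0 hr0)
  rw [Finset.sum_range_succ, Finset.sum_range_succ, Finset.sum_range_succ', Finset.sum_range_succ',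
    Finset.sum_range_succ', Finset.sum_eq_zero gmid]
  simp only [trace_smul, smul_eq_mul, zero_add, pow_one, g1, gm1, gm2, g0]
  rw [show (1 + 1 : ℕ) = 2 from rfl, g2, ← hr, hl]
  have h5 : (r * ω)⁻¹ ^ (m + 3) * r ^ (m + 5) = r ^ 2 * ω ^ 2 := by
    have : ω ^ (m + 3) * ω ^ 2 = 1 := by rw [← pow_add]; exact hω
    have h6 : ω ^ 2 = (ω ^ (m + 3))⁻¹ := eq_inv_of_mul_eq_one_right this
    rw [h6, inv_pow, mul_pow]
    field_simp
    ring
  have h7 : (r * ω)⁻¹ ^ 2 * (r * r) ^ 2 = r ^ 2 * ω⁻¹ ^ 2 := by field_simp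
  have h8 : ω * ω⁻¹ = 1 := mul_inv_cancel₀ hω0
  linear_combination (-(Fintype.card X : ℂ)) * h5 - (Fintype.card X : ℂ) * h7
    + 2 * (Fintype.card X : ℂ) * r ^ 2 * h8

end Mat

theorem dvd_of_rat {ω : ℂ} {m : ℕ} (hm : 0 < m) (hω : IsPrimitiveRoot ω m) (z : ℚ)
    (hz : ω + ω⁻¹ = z) : m ∣ 4 ∨ m ∣ 6 := by
  have hω0 : ω ≠ 0 := hω.ne_zero hm.ne'
  have hi : IsIntegral ℤ (ω + ω⁻¹) := (hω.isIntegral hm).add (hω.inv.isIntegral hm)
  rw [hz] at hi
  have hi' : IsIntegral ℤ z := by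
    rwa [show (z : ℂ) = algebraMap ℚ ℂ z from rfl,
      isIntegral_algebraMap_iff (algebraMap ℚ ℂ).injective] at hi
  obtain ⟨k, rfl⟩ := IsIntegrallyClosed.isIntegral_iff.1 hi'
  have hn : ‖ω‖ = 1 := hω.norm'_eq_one hm.ne'
  have hk : ‖ω + ω⁻¹‖ ≤ 2 := by
    refine (norm_add_le _ _).trans ?_
    rw [norm_inv, hn]; norm_num
  have hz' : ω + ω⁻¹ = (k : ℂ) := by rw [hz]; simp
  rw [hz', Complex.norm_intCast] at hk
  have hk' : |k| ≤ 2 := by exact_mod_cast hk
  have hq : ω ^ 2 + 1 = k * ω := by rw [← hz']; field_simp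
  obtain ⟨h1, h2⟩ := abs_le.1 hk'
  interval_cases k
  · left; apply hω.dvd_of_pow_eq_one
    have : (ω + 1) ^ 2 = 0 := by push_cast at hq; linear_combination hq
    have : ω = -1 := by linear_combination (pow_eq_zero_iff two_ne_zero).1 this
    rw [this]; norm_num
  · right; apply hω.dvd_of_pow_eq_one
    push_cast at hq; linear_combination (ω - 1) * (ω ^ 3 + 1) * hq
  · left; apply hω.dvd_of_pow_eq_one
    push_cast at hq; linear_combination (ω ^ 2 - 1) * hq
  · right; apply hω.dvd_of_pow_eq_one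
    push_cast at hq; linear_combination (ω + 1) * (ω ^ 3 - 1) * hq
  · left; apply hω.dvd_of_pow_eq_one
    have : (ω - 1) ^ 2 = 0 := by push_cast at hq; linear_combination hq
    have : ω = 1 := by linear_combination (pow_eq_zero_iff two_ne_zero).1 this
    rw [this]; norm_num

theorem arith (s t m n : ℕ) (hs : 2 ≤ s) (ht : 2 ≤ t) (hm : 5 ≤ m) (hn : 0 < n) (r : ℂ)
    (hr : r * r = s * t) (hodd : Odd m → s = t ∧ r = s)
    (H : ∀ ω : ℂ, ω ^ m = 1 → ∃ μ : ℕ, (μ : ℂ) * m * ((s * t + 1 - r * (ω + ω⁻¹))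
      * (s + t + r * (ω + ω⁻¹))) = n * (4 * (s * t) - (r * (ω + ω⁻¹)) ^ 2)) :
    m = 6 ∨ m = 8 := by
  have hs0 : (s : ℂ) ≠ 0 := by exact_mod_cast (by omega : s ≠ 0)
  have ht0 : (t : ℂ) ≠ 0 := by exact_mod_cast (by omega : t ≠ 0)
  have hn0 : (n : ℂ) ≠ 0 := by exact_mod_cast hn.ne'
  have hm0 : (m : ℂ) ≠ 0 := by exact_mod_cast (by omega : m ≠ 0)
  have hr0 : r ≠ 0 := by
    rintro rfl
    exact mul_ne_zero hs0 ht0 (by simpa using hr.symm)
  have H' : ∀ ω : ℂ, ω ^ m = 1 → ω ^ 2 ≠ 1 → (4 * (s * t) - (r * (ω + ω⁻¹)) ^ 2 ≠ 0) ∧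
      ∃ c : ℚ, ((s * t + 1 - r * (ω + ω⁻¹))
      * (s + t + r * (ω + ω⁻¹))) = c * (4 * (s * t) - (r * (ω + ω⁻¹)) ^ 2) := by
    intro ω hω h2
    have hω0 : ω ≠ 0 := by
      rintro rfl
      rw [zero_pow (by omega)] at hω; exact zero_ne_one hω
    have hD : (4 * (s * t) - (r * (ω + ω⁻¹)) ^ 2 : ℂ) ≠ 0 := by
      have : (4 * (s * t) - (r * (ω + ω⁻¹)) ^ 2 : ℂ) = -(r * ω⁻¹ * (ω ^ 2 - 1)) ^ 2 := by
        rw [← hr]; field_simp; ring
      rw [this, neg_ne_zero]
      exact pow_ne_zero _ (mul_ne_zero (mul_ne_zero hr0 (inv_ne_zero hω0)) (sub_ne_zero.2 h2))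
    obtain ⟨μ, hμ⟩ := H ω hω
    have hμ0 : (μ : ℂ) ≠ 0 := by
      intro h
      rw [h, zero_mul, zero_mul] at hμ
      exact mul_ne_zero hn0 hD hμ.symm
    refine ⟨hD, (n : ℚ) / (μ * m), ?_⟩
    push_cast
    rw [div_mul_eq_mul_div, eq_div_iff (mul_ne_zero hμ0 hm0), ← hμ]; ring
  obtain ⟨ζ, hζ⟩ : ∃ ζ : ℂ, IsPrimitiveRoot ζ m := ⟨_, Complex.isPrimitiveRoot_exp m (by omega)⟩
  have hζ0 : ζ ≠ 0 := hζ.ne_zero (by omega)
  have hζ2 : ζ ^ 2 ≠ 1 := fun h => by
    have := Nat.le_of_dvd (by norm_num) (hζ.dvd_of_pow_eq_one _ h); omega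
  have hζ4 : (ζ ^ 2) ^ 2 ≠ 1 := fun h => by
    rw [← pow_mul] at h
    have := Nat.le_of_dvd (by norm_num) (hζ.dvd_of_pow_eq_one _ h); omega
  rcases Nat.even_or_odd m with hev | hod
  · have R : ∀ ω : ℂ, ω ^ m = 1 → ω ^ 2 ≠ 1 → ∃ x : ℚ, r * (ω + ω⁻¹) = x := by
      intro ω hω h2
      obtain ⟨hD, c, hc⟩ := H' ω hω h2
      obtain ⟨-, c', hc'⟩ := H' (-ω) (by rw [hev.neg_pow, hω]) (by rwa [neg_sq])
      have e : r * (-ω + (-ω)⁻¹) = -(r * (ω + ω⁻¹)) := by rw [inv_neg]; ring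
      rw [e] at hc'
      generalize r * (ω + ω⁻¹) = x at *
      have hA : (((s : ℚ) - 1) * (t - 1)) ≠ 0 := by
        have h1 : (2 : ℚ) ≤ s := by exact_mod_cast hs
        have h2 : (2 : ℚ) ≤ t := by exact_mod_cast ht
        exact mul_ne_zero (by linarith) (by linarith)
      have hE : (((s : ℚ) * t + 1) * (s + t) - 4 * (s * t)) ≠ 0 := by
        have h1 : (2 : ℚ) ≤ s := by exact_mod_cast hs
        have h2 : (2 : ℚ) ≤ t := by exact_mod_cast ht
        have h3 : (0 : ℚ) ≤ s * t := by positivity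
        nlinarith
      by_cases hu : c + c' - 2 = 0
      · exfalso
        apply hE
        have hu' : (c : ℂ) + c' - 2 = 0 := by exact_mod_cast hu
        have : ((s : ℂ) * t + 1) * (s + t) - 4 * (s * t) = 0 := by
          linear_combination (1 / 2 : ℂ) * hc + (1 / 2 : ℂ) * hc'
            + (1 / 2 : ℂ) * (4 * (s * t) - x ^ 2) * hu'
        exact_mod_cast this
      · refine ⟨(c - c') * ((s * t + 1) * (s + t) - 4 * (s * t))
          / ((c + c' - 2) * ((s - 1) * (t - 1))), ?_⟩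
        have hu' : ((c : ℂ) + c' - 2) * ((s - 1) * (t - 1)) ≠ 0 := by
          exact_mod_cast mul_ne_zero hu hA
        push_cast
        rw [eq_div_iff hu']
        linear_combination ((c' : ℂ) - 1) * hc - ((c : ℂ) - 1) * hc'
    obtain ⟨x1, hx1⟩ := R ζ hζ.pow_eq_one hζ2
    obtain ⟨x2, hx2⟩ := R (ζ ^ 2) (by rw [← pow_mul, mul_comm, pow_mul, hζ.pow_eq_one, one_pow]) hζ4
    obtain ⟨k, rfl⟩ := hev
    have hp : IsPrimitiveRoot (ζ ^ 2) k := hζ.pow (by omega) (by ring)
    have hz : ζ ^ 2 + (ζ ^ 2)⁻¹ = ((x1 ^ 2 / (s * t) - 2 : ℚ) : ℂ) := by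
      push_cast
      rw [← hx1, ← hr]; field_simp; ring
    have hd := dvd_of_rat (by omega) hp _ hz
    have hk : k = 3 ∨ k = 4 ∨ k = 6 := by
      rcases hd with h | h
      · have := Nat.le_of_dvd (by norm_num) h
        interval_cases k <;> simp_all
      · have := Nat.le_of_dvd (by norm_num) h
        interval_cases k <;> simp_all
    rcases hk with rfl | rfl | rfl
    · simp
    · simp
    · exfalso
      have h12 : ζ ^ 12 = 1 := hζ.pow_eq_one
      have h6 : ζ ^ 6 ≠ 1 := fun h => by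
        have := Nat.le_of_dvd (by norm_num) (hζ.dvd_of_pow_eq_one _ h); omega
      have h4 : ζ ^ 2 + 1 ≠ 0 := fun h => hζ4 (by linear_combination (ζ ^ 2 - 1) * h)
      have h7 : ζ ^ 4 - ζ ^ 2 + 1 = 0 := by
        have : (ζ ^ 6 - 1) * ((ζ ^ 2 + 1) * (ζ ^ 4 - ζ ^ 2 + 1)) = 0 := by linear_combination h12
        exact (mul_eq_zero.1 ((mul_eq_zero.1 this).resolve_left (sub_ne_zero.2 h6))).resolve_left h4
      have h8 : ζ ^ 2 + (ζ ^ 2)⁻¹ = 1 := by field_simp; linear_combination h7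
      have h9 : (ζ + ζ⁻¹) ^ 2 = 3 := by field_simp; linear_combination h7
      rw [h8, mul_one] at hx2
      have h10 : (x1 : ℂ) ^ 2 = 3 * x2 ^ 2 := by rw [← hx1, ← hx2, mul_pow, h9]; ring
      have h11 : x1 ^ 2 = 3 * x2 ^ 2 := by exact_mod_cast h10
      have hx20 : x2 ≠ 0 := by
        rintro rfl
        exact hr0 (by simpa using hx2)
      have hsq : IsSquare (3 : ℚ) := ⟨x1 / x2, by field_simp; linarith⟩
      have : IsSquare (3 : ℕ) := by
        rw [← Rat.isSquare_natCast_iff]; exact_mod_cast hsq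
      exact Nat.prime_three.not_isSquare this
  · exfalso
    obtain ⟨rfl, rfl⟩ := hodd hod
    obtain ⟨hD, c, hc⟩ := H' ζ hζ.pow_eq_one hζ2
    have hD' : (s : ℂ) + s + s * (ζ + ζ⁻¹) ≠ 0 := fun h => hD (by
      linear_combination (2 * s - s * (ζ + ζ⁻¹)) * h)
    have h1 : (s : ℂ) * s + 1 - s * (ζ + ζ⁻¹) = c * (2 * s - s * (ζ + ζ⁻¹)) := by
      apply mul_right_cancel₀ hD'
      linear_combination hc
    have hc1 : (c : ℂ) - 1 ≠ 0 := fun h => by
      have : ((s : ℂ) - 1) ^ 2 = 0 := by linear_combination h1 + (2 * s - s * (ζ + ζ⁻¹)) * h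
      have : (s : ℂ) = 1 := by linear_combination (pow_eq_zero_iff two_ne_zero).1 this
      have : s = 1 := by exact_mod_cast this
      omega
    have hz : ζ + ζ⁻¹ = (((2 * s * c - s * s - 1) / ((c - 1) * s) : ℚ) : ℂ) := by
      push_cast
      rw [eq_div_iff (mul_ne_zero hc1 hs0)]
      linear_combination h1
    rcases dvd_of_rat (by omega) hζ _ hz with h | h
    · have := Nat.le_of_dvd (by norm_num) h; omega
    · have := Nat.le_of_dvd (by norm_num) h
      interval_cases m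
      · norm_num at h
      · exact absurd hod (by decide)

theorem feit_higman_mat {X : Type*} [Fintype X] [DecidableEq X] [Nonempty X]
    {a b : Matrix X X ℂ} {s t m : ℕ} (hs : 2 ≤ s) (ht : 2 ≤ t) (hm : 5 ≤ m)
    (ha : a * a = ((s : ℂ) - 1) • a + (s : ℂ) • (1 : Matrix X X ℂ))
    (hb : b * b = ((t : ℂ) - 1) • b + (t : ℂ) • (1 : Matrix X X ℂ))
    (hta : a.trace = 0) (htb : b.trace = 0)
    (h0 : ∀ k, 0 < k → k < m → ((a * b) ^ k).trace = 0)
    (hmm : ((a * b) ^ m).trace = alt (s : ℂ) t m * Fintype.card X)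
    (hbr : alt a b m = alt b a m) (hbr' : alt (s : ℂ) t m = alt (t : ℂ) s m) :
    m = 6 ∨ m = 8 := by
  have hs0 : (s : ℂ) ≠ 0 := by exact_mod_cast (by omega : s ≠ 0)
  have ht0 : (t : ℂ) ≠ 0 := by exact_mod_cast (by omega : t ≠ 0)
  have key : ∃ r : ℂ, r * r = s * t ∧ (Odd m → s = t ∧ r = s) ∧ alt (s : ℂ) t m = r ^ m ∧
      (a * b) ^ m * Yc a b s t = r ^ m • Yc a b s t := by
    rcases Nat.even_or_odd' m with ⟨k, rfl | rfl⟩
    · obtain ⟨r, hr⟩ := IsAlgClosed.exists_eq_mul_self ((s : ℂ) * t)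
      obtain ⟨k, rfl⟩ : ∃ j, k = j + 1 := ⟨k - 1, by omega⟩
      refine ⟨r, hr.symm, fun h => absurd h (by simp), ?_, ?_⟩
      · rw [alt_even, pow_mul, pow_two, hr]
      · rw [pow_Y_even ha hb k hbr, pow_mul r, pow_two, hr]
    · obtain ⟨k, rfl⟩ : ∃ j, k = j + 1 := ⟨k - 1, by omega⟩
      have hst : s = t := by
        rw [alt_odd, alt_odd, mul_comm (t : ℂ) s] at hbr'
        exact_mod_cast mul_left_cancel₀ (pow_ne_zero _ (mul_ne_zero hs0 ht0)) hbr'
      subst hst
      refine ⟨s, rfl, fun _ => ⟨rfl, rfl⟩, ?_, pow_Y_odd ha hb hs0 k hbr⟩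
      rw [alt_odd]; ring
  obtain ⟨r, hr, hodd, halt, hY⟩ := key
  have hr0 : r ≠ 0 := by
    rintro rfl
    exact mul_ne_zero hs0 ht0 (by simpa using hr.symm)
  refine arith s t m (Fintype.card X) hs ht hm Fintype.card_pos r hr hodd fun ω hω => ?_
  obtain ⟨m, rfl⟩ : ∃ j, m = j + 5 := ⟨m - 5, by omega⟩
  rw [halt] at hmm
  exact exists_mult ha hb m r ω hr hr0 hω hta htb h0 hmm hY

end H81.FH
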