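import Mathlib
import Cfsg.Agent.Base
import Cfsg.Agent.Lib.BN.Basic
import Cfsg.Agent.Lib.H81.FeitHigA

/-! The Feit-Higman theorem for (B,N)-pairs of rank two. -/

set_option autoImplicit false

namespace H81.FH

open Matrix Finset H13 H13.BN Cfsg

section Dih

variable {W ι : Type*} [Group W] {g : ι → W}

theorem wp_altFrom (g : ι → W) (a b : ι) (n : ℕ) : wp g (altFrom a b n) = alt (g a) (g b) n := by
  induction n generalizing a b with
  | zero => simp [altFrom_zero, wp_nil, alt_zero]
  | succ n ih => rw [altFrom_succ, wp_cons, ih, alt_succ]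

theorem not_mem_zpowers {σ τ : W} (hσ : σ * σ = 1) (hτ : τ * τ = 1) (h1 : σ ≠ 1) (h2 : τ ≠ 1) :
    σ ∉ Subgroup.zpowers (σ * τ) := by
  rintro ⟨i, hi⟩
  have hi : (σ * τ) ^ i = σ := hi
  have hc : Commute (σ * τ) σ := by
    have := (Commute.refl (σ * τ)).zpow_right i
    rwa [hi] at this
  have h3 : σ * τ = τ * σ := by
    have := hc.eq
    rw [← mul_assoc, hσ, one_mul] at this
    calc σ * τ = σ * τ * σ * σ := by rw [mul_assoc _ σ σ, hσ, mul_one]
      _ = τ * σ := by rw [this]
  have h4 : (σ * τ) ^ (2 : ℤ) = 1 := by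
    rw [zpow_two]
    calc σ * τ * (σ * τ) = σ * τ * (τ * σ) := by rw [← h3]
      _ = σ * (τ * τ) * σ := by group
      _ = 1 := by rw [hτ, mul_one, hσ]
  rcases Int.even_or_odd' i with ⟨k, rfl | rfl⟩
  · rw [_root_.zpow_mul, h4, _root_.one_zpow] at hi; exact h1 hi.symm
  · rw [_root_.zpow_add_one, _root_.zpow_mul, h4, _root_.one_zpow, one_mul] at hi
    exact h2 (by simpa using hi)

theorem alt_ne {σ τ : W} (hσ : σ * σ = 1) (hτ : τ * τ = 1) (h1 : σ ≠ 1) (h2 : τ ≠ 1)
    {l l' : ℕ} (hl : l' < l) (hm : l ≤ orderOf (σ * τ)) :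
    alt σ τ l ≠ alt σ τ l' ∧ alt σ τ l ≠ alt τ σ l' := by
  have hn := not_mem_zpowers hσ hτ h1 h2
  set ρ := σ * τ with hρ
  have e1 : τ * σ = ρ⁻¹ := by
    rw [hρ, _root_.mul_inv_rev, inv_eq_of_mul_eq_one_left hσ, inv_eq_of_mul_eq_one_left hτ]
  have e2 : τ = ρ⁻¹ * σ := by rw [← e1, mul_assoc, hσ, mul_one]
  have A : ∀ i j : ℤ, ρ ^ i = ρ ^ j → i - j = 0 ∨ (orderOf ρ : ℤ) ≤ |i - j| := by
    intro i j h
    have : (orderOf ρ : ℤ) ∣ i - j := orderOf_dvd_sub_iff_zpow_eq_zpow.2 h
    by_cases h0 : i - j = 0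
    · exact Or.inl h0
    · exact Or.inr (Int.le_of_dvd (abs_pos.2 h0) ((dvd_abs _ _).2 this))
  have B : ∀ i j : ℤ, ρ ^ i ≠ ρ ^ j * σ := by
    intro i j h
    exact hn ⟨i - j, by
      show ρ ^ (i - j) = σ
      rw [sub_eq_neg_add, _root_.zpow_add, h, ← mul_assoc, ← _root_.zpow_add]; simp⟩
  have E1 : ∀ k, alt σ τ (2 * k) = ρ ^ (k : ℤ) := fun k => by rw [alt_even, zpow_natCast]
  have E2 : ∀ k, alt σ τ (2 * k + 1) = ρ ^ (k : ℤ) * σ := fun k => by rw [alt_odd, zpow_natCast]
  have E3 : ∀ k, alt τ σ (2 * k) = ρ ^ (-(k : ℤ)) := fun k => by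
    rw [alt_even, e1, _root_.zpow_neg, zpow_natCast, inv_pow]
  have E4 : ∀ k, alt τ σ (2 * k + 1) = ρ ^ (-(k : ℤ) - 1) * σ := fun k => by
    rw [alt_odd, e1, _root_.zpow_sub_one, _root_.zpow_neg, zpow_natCast, inv_pow, mul_assoc, ← e2]
  rcases Nat.even_or_odd' l with ⟨k, rfl | rfl⟩ <;>
    rcases Nat.even_or_odd' l' with ⟨k', rfl | rfl⟩
  · rw [E1, E1, E3]
    refine ⟨fun h => ?_, fun h => ?_⟩ <;> rcases A _ _ h with h | h <;>
      first | omega | (rw [le_abs] at h; omega)
  · rw [E1, E2, E4]; exact ⟨B _ _, B _ _⟩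
  · rw [E2, E1, E3]; exact ⟨(B _ _).symm, (B _ _).symm⟩
  · rw [E2, E2, E4]
    refine ⟨fun h => ?_, fun h => ?_⟩ <;> rcases A _ _ (mul_right_cancel h) with h | h <;>
      first | omega | (rw [le_abs] at h; omega)

theorem red_eq_alt (hg : InvGen g) {a b : ι} (hab : ∀ c, c = a ∨ c = b) (l : List ι)
    (hl : IsRed g l) : l = altFrom a b l.length ∨ l = altFrom b a l.length := by
  induction l with
  | nil => left; rfl
  | cons c l ih =>
    have h := ih (hg.isRed_tail hl)
    have hne : ∀ l', l ≠ c :: l' := by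
      rintro l' rfl
      have h1 : wp g (c :: c :: l') = wp g l' := by rw [wp_cons, wp_cons, hg.cancel_left]
      have h2 := len_wp_le g l'
      rw [IsRed, h1] at hl
      simp at hl; omega
    rw [List.length_cons, altFrom_succ, altFrom_succ]
    rcases hab c with rfl | rfl
    · left
      rcases h with h | h
      · cases l with
        | nil => rfl
        | cons d l => rw [List.length_cons, altFrom_succ] at h; exact absurd h (hne _)
      · rw [← h]
    · right
      rcases h with h | h
      · rw [← h]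
      · cases l with
        | nil => rfl
        | cons d l => rw [List.length_cons, altFrom_succ] at h; exact absurd h (hne _)

theorem len_alt (hg : InvGen g) {a b : ι} (hab : ∀ c, c = a ∨ c = b) (h1 : ∀ c, g c ≠ 1)
    {l : ℕ} (hl : l ≤ orderOf (g a * g b)) : len g (alt (g a) (g b) l) = l := by
  obtain ⟨r, hr, he⟩ := hg.exists_red (alt (g a) (g b) l)
  have h2 : len g (alt (g a) (g b) l) ≤ l := by
    have := len_wp_le g (altFrom a b l)
    rwa [wp_altFrom, length_altFrom] at this
  have h3 : len g (alt (g a) (g b) l) = r.length := by rw [← he]; exact hr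
  by_contra hne
  have hlt : r.length < l := by omega
  have := alt_ne (hg.sq a) (hg.sq b) (h1 a) (h1 b) hlt hl
  rcases red_eq_alt hg hab r hr with h | h
  · rw [h, wp_altFrom] at he; exact this.1 he.symm
  · rw [h, wp_altFrom] at he; exact this.2 he.symm

theorem card_eq [Finite W] (hg : InvGen g) {a b : ι} (hab : ∀ c, c = a ∨ c = b)
    (h1 : ∀ c, g c ≠ 1) : Nat.card W = 2 * orderOf (g a * g b) := by
  have hn := not_mem_zpowers (hg.sq a) (hg.sq b) (h1 a) (h1 b)
  set H := Subgroup.zpowers (g a * g b) with hH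
  have hconj : ∀ x ∈ H, g a * x * g a ∈ H := by
    rintro x ⟨i, rfl⟩
    have e : g a * (g a * g b) * (g a)⁻¹ = (g a * g b)⁻¹ := by
      rw [hg.cancel_left, _root_.mul_inv_rev, hg.inv_eq b]
    show g a * (g a * g b) ^ i * g a ∈ H
    have := conj_zpow (i := i) (a := g a) (b := g a * g b)
    rw [e, hg.inv_eq] at this
    rw [← this]
    exact H.zpow_mem (H.inv_mem (Subgroup.mem_zpowers _)) _
  have hall : ∀ x : W, x ∈ H ∨ x * g a ∈ H := by
    intro x
    obtain ⟨l, rfl⟩ := hg.wp_surjective x
    induction l with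
    | nil => left; rw [wp_nil]; exact H.one_mem
    | cons c l ih =>
      rw [wp_cons]
      have hb : g b = (g a * g b)⁻¹ * g a := by
        rw [_root_.mul_inv_rev, hg.inv_eq, hg.inv_eq, hg.cancel_right]
      have hρ : (g a * g b)⁻¹ ∈ H := H.inv_mem (Subgroup.mem_zpowers _)
      have A : g a * wp g l ∈ H ∨ g a * wp g l * g a ∈ H := by
        rcases ih with h | h
        · exact Or.inr (hconj _ h)
        · left
          have := hconj _ h
          rwa [mul_assoc, hg.cancel_right] at this
      rcases hab c with rfl | rfl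
      · exact A
      · rw [hb]
        rcases A with h | h
        · left; rw [mul_assoc]; exact H.mul_mem hρ h
        · right; rw [mul_assoc, mul_assoc, ← mul_assoc (g a)]; exact H.mul_mem hρ h
  have hi : H.index = 2 := by
    rw [Subgroup.index_eq_two_iff]
    refine ⟨g a, fun x => ?_⟩
    rcases hall x with h | h
    · exact Or.inr ⟨h, fun h' => hn ((H.mul_mem_cancel_left h).1 h')⟩
    · exact Or.inl ⟨h, fun h' => hn ((H.mul_mem_cancel_left h').1 h)⟩
  rw [← H.card_mul_index, hi, hH, Nat.card_zpowers, mul_comm]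

theorem alt_braid {σ τ : W} (hσ : σ * σ = 1) (hτ : τ * τ = 1) {m : ℕ} (h : (σ * τ) ^ m = 1) :
    alt σ τ m = alt τ σ m := by
  have := wp_altFrom_mul_inv (t := fun c : Bool => if c then σ else τ)
    (fun c => by cases c <;> simpa) true false m
  rw [wp_altFrom, wp_altFrom] at this
  simp only [if_true, Bool.false_eq_true, if_false, h] at this
  exact mul_inv_eq_one.1 this

end Dih

theorem alt_add {M : Type*} [Monoid M] (a b : M) (m l : ℕ) :
    alt a b (m + l) = alt a b m * alt a b l ∨ alt a b (m + l) = alt a b m * alt b a l := by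
  induction m generalizing a b with
  | zero => left; simp [alt_zero]
  | succ m ih =>
    rw [show m + 1 + l = m + l + 1 by ring, alt_succ, alt_succ]
    rcases ih b a with h | h
    · right; rw [h, mul_assoc]
    · left; rw [h, mul_assoc]

section BN

variable {G : Type*} [Group G] (P : BNPair G)

/-- Weyl distance of cosets -/
noncomputable def dist (x y : G ⧸ P.B) : Weyl P :=
  Classical.choose (exists_mem_cell (P := P) (x.out⁻¹ * y.out))

variable {P}

theorem dist_mk (g h : G) (w : Weyl P) :
    dist P (g : G ⧸ P.B) (h : G ⧸ P.B) = w ↔ g⁻¹ * h ∈ cell P w := by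
  have h1 : g⁻¹ * h ∈ cell P (dist P (g : G ⧸ P.B) (h : G ⧸ P.B)) := by
    have h0 : _ ∈ cell P (dist P (g : G ⧸ P.B) (h : G ⧸ P.B)) :=
      Classical.choose_spec (exists_mem_cell (P := P)
        ((g : G ⧸ P.B).out⁻¹ * (h : G ⧸ P.B).out))
    obtain ⟨b, hb⟩ := QuotientGroup.mk_out_eq_mul P.B g
    obtain ⟨c, hc⟩ := QuotientGroup.mk_out_eq_mul P.B h
    rw [hb, hc] at h0
    have := cell_mul_mem (mul_mem_cell b.2 h0) (P.B.inv_mem c.2)
    convert this using 1
    group
  exact ⟨fun h => h ▸ h1, fun h => eq_of_mem_cell h1 h⟩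

theorem dist_eq_one (x y : G ⧸ P.B) : dist P x y = 1 ↔ x = y := by
  induction x using QuotientGroup.induction_on
  induction y using QuotientGroup.induction_on
  rw [dist_mk, mem_cell_one, QuotientGroup.eq]

theorem dist_symm (x y : G ⧸ P.B) : dist P y x = (dist P x y)⁻¹ := by
  induction x using QuotientGroup.induction_on with | H g => ?_
  induction y using QuotientGroup.induction_on with | H h => ?_
  rw [dist_mk]
  have := inv_mem_cell ((dist_mk (P := P) g h _).1 rfl)
  simpa using this

theorem dist_smul (k : G) (x y : G ⧸ P.B) : dist P (k • x) (k • y) = dist P x y := by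
  induction x using QuotientGroup.induction_on with | H g => ?_
  induction y using QuotientGroup.induction_on with | H h => ?_
  rw [MulAction.Quotient.smul_mk, MulAction.Quotient.smul_mk, dist_mk]
  have := (dist_mk (P := P) g h _).1 rfl
  convert this using 1
  simp only [smul_eq_mul]; group

theorem dist_gen {s : P.S} {x y z : G ⧸ P.B} (h : dist P x y = gen P s) :
    dist P x z = gen P s * dist P y z ∨ dist P x z = dist P y z := by
  induction x using QuotientGroup.induction_on with | H g => ?_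
  induction y using QuotientGroup.induction_on with | H g' => ?_
  induction z using QuotientGroup.induction_on with | H k => ?_
  have := gen_mul_mem ((dist_mk _ _ _).1 h) ((dist_mk (P := P) g' k _).1 rfl)
  rw [dist_mk, dist_mk]
  simpa [mul_assoc] using this

theorem dist_gen_lt {s : P.S} {x y z : G ⧸ P.B} (h : dist P x y = gen P s)
    (hl : len (gen P) (dist P y z) < len (gen P) (gen P s * dist P y z)) :
    dist P x z = gen P s * dist P y z := by
  induction x using QuotientGroup.induction_on with | H g => ?_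
  induction y using QuotientGroup.induction_on with | H g' => ?_
  induction z using QuotientGroup.induction_on with | H k => ?_
  have := gen_mul_mem_of_lt hl ((dist_mk _ _ _).1 h) ((dist_mk (P := P) g' k _).1 rfl)
  rw [dist_mk]
  simpa [mul_assoc] using this

theorem exists_dist {s : P.S} {w : Weyl P} {x z : G ⧸ P.B} (h : dist P x z = gen P s * w) :
    ∃ y, dist P x y = gen P s ∧ dist P y z = w := by
  induction x using QuotientGroup.induction_on with | H g => ?_
  induction z using QuotientGroup.induction_on with | H k => ?_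
  induction w using QuotientGroup.induction_on with | H n => ?_
  rw [dist_mk, ← mk_genN, ← QuotientGroup.mk_mul, mem_cell_mk] at h
  obtain ⟨b, hb, c, hc, e⟩ := h
  refine ⟨((g * b * s : G) : G ⧸ P.B), ?_, ?_⟩
  · rw [dist_mk]
    have := mul_mem_cell hb (coe_mem_cell_gen P s)
    convert this using 1
    group
  · rw [dist_mk]
    have := cell_mul_mem (coe_mem_cell P n) hc
    convert this using 1
    rw [Subgroup.coe_mul, coe_genN] at e
    calc (g * b * s)⁻¹ * k = (s : G)⁻¹ * b⁻¹ * (g⁻¹ * k) := by group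
      _ = _ := by rw [e]; group

open Classical in
/-- the matrix of a double coset -/
noncomputable def Mw (w : Weyl P) : Matrix (G ⧸ P.B) (G ⧸ P.B) ℂ :=
  fun x y => if dist P x y = w then 1 else 0

variable [Fintype (G ⧸ P.B)] [DecidableEq (G ⧸ P.B)]

open Classical in
/-- valency -/
noncomputable def val (w : Weyl P) : ℕ := #{y : G ⧸ P.B | dist P ((1 : G) : G ⧸ P.B) y = w}

open Classical in
theorem card_dist (x : G ⧸ P.B) (w : Weyl P) : #{y : G ⧸ P.B | dist P x y = w} = val w := by
  induction x using QuotientGroup.induction_on with | H g => ?_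
  symm
  refine Finset.card_bij (fun y _ => g • y) ?_ ?_ ?_
  · intro y hy
    simp only [Finset.mem_filter, Finset.mem_univ, true_and] at hy ⊢
    rw [← hy, ← dist_smul g ((1 : G) : G ⧸ P.B), MulAction.Quotient.smul_mk, smul_eq_mul, mul_one]
  · intro y _ y' _ h
    exact smul_left_cancel g h
  · intro y hy
    refine ⟨g⁻¹ • y, ?_, smul_inv_smul g y⟩
    simp only [Finset.mem_filter, Finset.mem_univ, true_and] at hy ⊢
    rw [← hy, ← dist_smul g, MulAction.Quotient.smul_mk, smul_eq_mul, mul_one, smul_inv_smul]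

open Classical in
theorem Mw_mul_apply (u w : Weyl P) (x z : G ⧸ P.B) :
    (Mw u * Mw w) x z = (#{y : G ⧸ P.B | dist P x y = u ∧ dist P y z = w} : ℕ) := by
  rw [Matrix.mul_apply, Finset.card_filter]
  push_cast
  refine Finset.sum_congr rfl fun y _ => ?_
  simp only [Mw]
  split_ifs <;> simp_all

omit [Fintype (G ⧸ P.B)] in
theorem Mw_one : Mw (P := P) 1 = 1 := by
  ext x y
  simp only [Mw, dist_eq_one, Matrix.one_apply]

theorem Mw_gen_mul {s : P.S} {w : Weyl P} (hl : len (gen P) w < len (gen P) (gen P s * w)) :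
    Mw (gen P s) * Mw w = Mw (gen P s * w) := by
  classical
  ext x z
  rw [Mw_mul_apply]
  simp only [Mw]
  split_ifs with h
  · obtain ⟨y, h1, h2⟩ := exists_dist h
    rw [Nat.cast_eq_one, Finset.card_eq_one]
    refine ⟨y, Finset.eq_singleton_iff_unique_mem.2 ⟨by simp [h1, h2], fun y' hy' => ?_⟩⟩
    simp only [Finset.mem_filter, Finset.mem_univ, true_and] at hy'
    have h3 : dist P y' x = gen P s := by rw [dist_symm, hy'.1, (invGen P).inv_eq]
    rcases dist_gen (z := y) h3 with h4 | h4
    · rw [h1, (invGen P).sq] at h4; exact (dist_eq_one _ _).1 h4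
    · rw [h1] at h4
      have h5 := dist_gen_lt (z := z) h4 (by rwa [h2])
      rw [h2, hy'.2] at h5
      exact absurd (by simpa using h5.symm) (gen_ne_one (P := P) s)
  · rw [Nat.cast_eq_zero, Finset.card_eq_zero, Finset.filter_eq_empty_iff]
    rintro y - ⟨h1, h2⟩
    exact h (by rw [dist_gen_lt h1 (by rwa [h2]), h2])

theorem Mw_gen_sq (s : P.S) : Mw (gen P s) * Mw (gen P s)
    = ((val (gen P s) : ℂ) - 1) • Mw (gen P s) + (val (gen P s) : ℂ) • 1 := by
  classical
  ext x z
  rw [Mw_mul_apply, Matrix.add_apply, Matrix.smul_apply, Matrix.smul_apply, Matrix.one_apply]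
  simp only [Mw, smul_eq_mul]
  by_cases hxz : x = z
  · subst hxz
    rw [if_pos rfl, if_neg (by rw [(dist_eq_one x x).2 rfl]; exact (gen_ne_one (P := P) s).symm),
      ← card_dist x]
    simp only [mul_zero, zero_add, mul_one, Nat.cast_inj]
    congr 1
    ext y
    simp only [Finset.mem_filter, Finset.mem_univ, true_and, and_iff_left_iff_imp]
    intro h
    rw [dist_symm, h, (invGen P).inv_eq]
  · rw [if_neg hxz, mul_zero, add_zero]
    split_ifs with h
    · rw [mul_one, ← card_dist x, eq_sub_iff_add_eq]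
      norm_cast
      rw [← Finset.card_erase_add_one (s := {y : G ⧸ P.B | dist P x y = gen P s}) (a := z)
        (by simp [h])]
      congr 2
      ext y
      simp only [Finset.mem_filter, Finset.mem_univ, true_and, Finset.mem_erase]
      constructor
      · rintro ⟨h1, h2⟩
        refine ⟨?_, h1⟩
        rintro rfl
        rw [(dist_eq_one y y).2 rfl] at h2
        exact gen_ne_one (P := P) s h2.symm
      · rintro ⟨h1, h2⟩
        refine ⟨h2, ?_⟩
        have h3 : dist P y x = gen P s := by rw [dist_symm, h2, (invGen P).inv_eq]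
        rcases dist_gen (z := z) h3 with h4 | h4
        · rw [h, (invGen P).sq] at h4; exact absurd ((dist_eq_one _ _).1 h4) h1
        · rw [h4, h]
    · rw [mul_zero, Nat.cast_eq_zero, Finset.card_eq_zero, Finset.filter_eq_empty_iff]
      rintro y - ⟨h1, h2⟩
      rcases dist_gen (z := z) h1 with h4 | h4
      · rw [h2, (invGen P).sq] at h4; exact hxz ((dist_eq_one _ _).1 h4)
      · exact h (h4.trans h2)

theorem two_le_val (s : P.S) : 2 ≤ val (gen P s) := by
  classical
  obtain ⟨x, hx, y, hy, hxy⟩ := exists_gen_mul_gen (P := P) s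
  rw [val, Nat.succ_le_iff, Finset.one_lt_card]
  refine ⟨(x : G ⧸ P.B), by simpa [dist_mk] using hx, ((x * y : G) : G ⧸ P.B),
    by simpa [dist_mk, -QuotientGroup.mk_mul] using hxy, fun h => ?_⟩
  rw [QuotientGroup.eq, inv_mul_cancel_left] at h
  exact gen_ne_one (P := P) s (eq_of_mem_cell hy ((mem_cell_one P).2 h))

open Classical in
theorem trace_Mw_mul (u w : Weyl P) : (Mw u * Mw w).trace
    = if w = u⁻¹ then (val u : ℂ) * Fintype.card (G ⧸ P.B) else 0 := by
  have : ∀ x, (Mw u * Mw w) x x = if w = u⁻¹ then (val u : ℂ) else 0 := by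
    intro x
    rw [Mw_mul_apply]
    split_ifs with h
    · rw [← card_dist x]
      congr 2
      ext y
      simp only [Finset.mem_filter, Finset.mem_univ, true_and, and_iff_left_iff_imp]
      intro h'
      rw [dist_symm, h', h]
    · rw [Nat.cast_eq_zero, Finset.card_eq_zero, Finset.filter_eq_empty_iff]
      rintro y - ⟨h1, h2⟩
      exact h (by rw [← h2, dist_symm, h1])
  simp only [Matrix.trace, Matrix.diag, this]
  split_ifs <;> simp [mul_comm]

theorem Mw_mulVec (w : Weyl P) : Mw w *ᵥ (fun _ => (1 : ℂ)) = (val w : ℂ) • fun _ => (1 : ℂ) := by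
  classical
  ext x
  rw [← card_dist x, Finset.card_filter]
  simp [Matrix.mulVec, dotProduct, Mw]

theorem alt_Mw {a b : P.S} (hab : ∀ c, c = a ∨ c = b) {l : ℕ}
    (hl : l ≤ orderOf (gen P a * gen P b)) :
    alt (Mw (gen P a)) (Mw (gen P b)) l = Mw (alt (gen P a) (gen P b) l) ∧
      (val (alt (gen P a) (gen P b) l) : ℂ) = alt (val (gen P a) : ℂ) (val (gen P b)) l := by
  have ho : ∀ u v : Weyl P, orderOf (u * v) = orderOf (v * u) := fun u v => by
    rw [← (MulAut.conj u).orderOf_eq (v * u)]; congr 1; simp [mul_assoc]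
  induction l generalizing a b with
  | zero =>
    refine ⟨by rw [alt_zero, alt_zero, Mw_one], ?_⟩
    have := congrFun (Mw_mulVec (P := P) 1) ((1 : G) : G ⧸ P.B)
    rw [Mw_one] at this
    simpa [alt_zero] using this.symm
  | succ l ih =>
    obtain ⟨h1, h2⟩ := ih (a := b) (b := a) (fun c => (hab c).symm) (by rw [ho]; omega)
    have hlen : len (gen P) (alt (gen P b) (gen P a) l)
        < len (gen P) (gen P a * alt (gen P b) (gen P a) l) := by
      rw [← alt_succ, len_alt (invGen P) hab (gen_ne_one (P := P)) hl,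
        len_alt (invGen P) (fun c => (hab c).symm) (gen_ne_one (P := P)) (by rw [ho]; omega)]
      omega
    have h3 := Mw_gen_mul hlen
    refine ⟨by rw [alt_succ, alt_succ, h1, h3], ?_⟩
    have h4 := congrFun (Mw_mulVec (P := P) (gen P a * alt (gen P b) (gen P a) l))
      ((1 : G) : G ⧸ P.B)
    rw [← h3, ← Matrix.mulVec_mulVec, Mw_mulVec, Matrix.mulVec_smul, Mw_mulVec] at h4
    rw [alt_succ, alt_succ, ← h2]
    simpa [mul_comm] using h4.symm

end BN

theorem feit_higman {G : Type*} [Group G] [Finite G] (P : BNPair G) (h2 : P.rank = 2) :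
    Nat.card (Weyl P) ∈ ({4, 6, 8, 12, 16} : Set ℕ) := by
  classical
  haveI : Fintype (G ⧸ P.B) := Fintype.ofFinite _
  obtain ⟨a, b, hne, hab⟩ := Nat.card_eq_two_iff.1 h2
  have hab : ∀ c, c = a ∨ c = b := fun c => by
    have : c ∈ ({a, b} : Set P.S) := hab ▸ Set.mem_univ c
    simpa using this
  have hba : ∀ c, c = b ∨ c = a := fun c => (hab c).symm
  have hg := invGen P
  have h1 := gen_ne_one (P := P)
  rw [card_eq hg hab h1]
  set m := orderOf (gen P a * gen P b) with hm
  have hm' : orderOf (gen P b * gen P a) = m := by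
    rw [hm, ← (MulAut.conj (gen P b)).orderOf_eq (gen P a * gen P b)]; congr 1; simp [mul_assoc]
  have hm0 : m ≠ 0 := (orderOf_pos _).ne'
  have hm1 : m ≠ 1 := fun h => by
    rw [hm, orderOf_eq_one_iff, mul_eq_one_iff_eq_inv, hg.inv_eq] at h
    exact hne (gen_injective P h)
  by_cases hm5 : m < 5
  · have : m = 2 ∨ m = 3 ∨ m = 4 := by omega
    rcases this with h | h | h <;> simp [h]
  have hbr : alt (gen P a) (gen P b) m = alt (gen P b) (gen P a) m :=
    alt_braid (hg.sq a) (hg.sq b) (pow_orderOf_eq_one _)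
  have A := fun l (hl : l ≤ m) => alt_Mw hab (l := l) hl
  have B := fun l (hl : l ≤ m) => alt_Mw hba (l := l) (hm' ▸ hl)
  have tr1 : ∀ w : Weyl P, w ≠ 1 → (Mw w).trace = 0 := fun w hw => by
    have := trace_Mw_mul (P := P) 1 w
    rwa [Mw_one, one_mul, if_neg (by simpa using hw)] at this
  have hpow : ∀ l, l ≤ m → ∃ u, len (gen P) u = l ∧ (l = m → u = alt (gen P a) (gen P b) m) ∧
      alt (Mw (gen P a)) (Mw (gen P b)) (m + l) = Mw (alt (gen P a) (gen P b) m) * Mw u := by
    intro l hl
    rcases alt_add (Mw (gen P a)) (Mw (gen P b)) m l with h | h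
    · exact ⟨_, len_alt hg hab h1 hl, fun h => by rw [h], by rw [h, (A m le_rfl).1, (A l hl).1]⟩
    · exact ⟨_, len_alt hg hba h1 (hm' ▸ hl), fun h => by rw [h, hbr],
        by rw [h, (A m le_rfl).1, (B l hl).1]⟩
  have hinv : (alt (gen P a) (gen P b) m)⁻¹ = alt (gen P a) (gen P b) m := by
    rw [inv_eq_iff_mul_eq_one]
    have h0 : alt (gen P a) (gen P b) (m + m) = 1 := by
      rw [← two_mul, alt_even]; exact pow_orderOf_eq_one _
    rcases alt_add (gen P a) (gen P b) m m with h | h
    · rw [← h, h0]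
    · rw [← hbr] at h; rw [← h, h0]
  have := feit_higman_mat (a := Mw (gen P a)) (b := Mw (gen P b)) (m := m) (two_le_val a)
    (two_le_val b) (by omega) (Mw_gen_sq a) (Mw_gen_sq b) (tr1 _ (h1 a)) (tr1 _ (h1 b)) ?_ ?_ ?_ ?_
  · rcases this with h | h <;> simp [h]
  · intro k hk0 hk
    rw [← alt_even]
    by_cases h2k : 2 * k ≤ m
    · rw [(A _ h2k).1]
      refine tr1 _ fun h => ?_
      have := len_alt hg hab h1 h2k
      rw [h, len_one] at this
      omega
    · obtain ⟨u, hu, -, he⟩ := hpow (2 * k - m) (by omega)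
      rw [show 2 * k = m + (2 * k - m) by omega, he, trace_Mw_mul, if_neg]
      intro h
      rw [h, hinv, len_alt hg hab h1 le_rfl] at hu
      omega
  · obtain ⟨u, -, hu, he⟩ := hpow m le_rfl
    rw [← alt_even, two_mul, he, trace_Mw_mul, hu rfl, if_pos hinv.symm, (A m le_rfl).2]
  · rw [(A m le_rfl).1, (B m le_rfl).1, hbr]
  · rw [← (A m le_rfl).2, ← (B m le_rfl).2, hbr]

end H81.FH
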