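import Mathlib
import Cfsg.Agent.Base
import Cfsg.Agent.Lib.Transfer.NormalComplement
import Cfsg.Agent.Lib.SE42.ElemCent

/-! Fixed point sets of maximal size of elements of prime order. -/

set_option autoImplicit false
set_option linter.style.haveILetI false
set_option linter.unusedSectionVars false

namespace H81

open Cfsg Subgroup MulAction
open scoped Pointwise

variable {G : Type*} [Group G]

/-- `φ` restricts to a homomorphism on `M` with kernel `K`. -/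
structure Act (M K : Subgroup G) {X : Type*} [Group X] (φ : G → X) : Prop where
  mul : ∀ a ∈ M, ∀ b ∈ M, φ (a * b) = φ a * φ b
  ker : ∀ a ∈ M, φ a = 1 ↔ a ∈ K
  le : K ≤ M

namespace Act

variable {M K : Subgroup G} {X : Type*} [Group X] {φ : G → X} (h : Act M K φ)
include h

def hom {T : Subgroup G} (hT : T ≤ M) : T →* X :=
  MonoidHom.mk' (fun t => φ t) fun a b => h.mul _ (hT a.2) _ (hT b.2)

theorem one : φ 1 = 1 := (h.ker 1 (one_mem _)).2 (one_mem _)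

theorem inv {a : G} (ha : a ∈ M) : φ a⁻¹ = (φ a)⁻¹ := (h.hom le_rfl).map_inv ⟨a, ha⟩

theorem pow {a : G} (ha : a ∈ M) (n : ℕ) : φ (a ^ n) = φ a ^ n := (h.hom le_rfl).map_pow ⟨a, ha⟩ n

theorem conj {a b : G} (ha : a ∈ M) (hb : b ∈ M) : φ (a * b * a⁻¹) = φ a * φ b * (φ a)⁻¹ := by
  rw [h.mul _ (mul_mem ha hb) _ (inv_mem ha), h.mul _ ha _ hb, h.inv ha]

theorem conj_mem {a b : G} (ha : a ∈ M) (hb : b ∈ K) : a * b * a⁻¹ ∈ K :=
  (h.ker _ (mul_mem (mul_mem ha (h.le hb)) (inv_mem ha))).1 (by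
    rw [h.conj ha (h.le hb), (h.ker b (h.le hb)).2 hb]; simp)

theorem ker_hom {T : Subgroup G} (hT : T ≤ M) : (h.hom hT).ker = K.subgroupOf T :=
  Subgroup.ext fun t => h.ker _ (hT t.2)

theorem relIndex_eq {T : Subgroup G} (hT : T ≤ M) : K.relIndex T = Nat.card (h.hom hT).range := by
  rw [relIndex, ← h.ker_hom hT, index_ker]

theorem relIndex_dvd {p : ℕ} [hp : Fact p.Prime] [Finite X] (hX : ¬ p ^ 2 ∣ Nat.card X)
    {T : Subgroup G} (hT : T ≤ M) (hpT : IsPGroup p T) : K.relIndex T ∣ p := by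
  rw [h.relIndex_eq hT]
  obtain ⟨n, hn⟩ := IsPGroup.iff_card.1 (hpT.of_surjective _ (h.hom hT).rangeRestrict_surjective)
  have := card_subgroup_dvd_card (h.hom hT).range
  rw [hn] at this ⊢
  rcases n with _ | _ | n
  · simp
  · simp
  · exact (hX ((pow_dvd_pow p (by omega)).trans this)).elim

theorem pow_mem {p : ℕ} [hp : Fact p.Prime] [Finite X] (hX : ¬ p ^ 2 ∣ Nat.card X)
    {T : Subgroup G} (hT : T ≤ M) (hpT : IsPGroup p T) {x : G} (hx : x ∈ T) : x ^ p ∈ K := by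
  have := h.relIndex_dvd hX hT hpT
  rw [h.relIndex_eq hT] at this
  refine (h.ker _ (M.pow_mem (hT hx) p)).1 ?_
  rw [h.pow (hT hx)]
  exact orderOf_dvd_iff_pow_eq_one.1 (((h.hom hT).range.orderOf_dvd_natCard ⟨⟨x, hx⟩, rfl⟩).trans this)

end Act

theorem ne_bot_iff {A : Subgroup G} : A ≠ ⊥ ↔ ∃ x ∈ A, x ≠ 1 := by
  simp [eq_bot_iff_forall]

theorem isPGroup_zpowers_conj {p : ℕ} {P : Subgroup G} (hP : IsPGroup p P) {u : G} (hu : u ∈ P) (g : G) :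
    IsPGroup p (zpowers (g * u * g⁻¹)) := by
  rw [show g * u * g⁻¹ = (MulAut.conj g).toMonoidHom u from rfl, ← MonoidHom.map_zpowers]
  exact (hP.to_le (zpowers_le.2 hu)).map _

theorem card_le_relIndex [Finite G] {A K T : Subgroup G} (hA : A ≤ T) (h : A ⊓ K = ⊥) :
    Nat.card A ≤ K.relIndex T := by
  have := H4.card_inf_mul_relIndex K A
  rw [inf_comm, h, card_bot, one_mul] at this
  rw [← this]
  exact relIndex_le_of_le_right hA (FiniteIndex.index_ne_zero (H := K.subgroupOf T))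

theorem exists_orderOf_pow {p : ℕ} [hp : Fact p.Prime] {P : Subgroup G} (hP : IsPGroup p P) {y : G}
    (hy : y ∈ P) (y1 : y ≠ 1) : ∃ n : ℕ, orderOf (y ^ n) = p := by
  obtain ⟨k, hk⟩ := hP ⟨y, hy⟩
  replace hk : y ^ p ^ k = 1 := congrArg Subtype.val hk
  obtain ⟨j, -, hj⟩ := (Nat.dvd_prime_pow hp.out).1 (orderOf_dvd_of_pow_eq_one hk)
  rcases j with _ | j
  · exact (y1 (orderOf_eq_one_iff.1 hj)).elim
  · exact ⟨p ^ j, by
      rw [orderOf_pow' _ (pow_ne_zero _ hp.out.ne_zero), hj, Nat.gcd_eq_right (pow_dvd_pow p (by omega)),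
        pow_succ, Nat.mul_div_cancel_left _ (pow_pos hp.out.pos _)]⟩

variable {Ω : Type*} [MulAction G Ω]

theorem exists_act (Δ : Set Ω) [Finite Δ] {m : ℕ} (hm : Nat.card Δ = m) : ∃ φ : G → Equiv.Perm (Fin m),
    Act (stabilizer G Δ) (fixingSubgroup G Δ) φ ∧
      ∀ a ∈ stabilizer G Δ, ∀ b, φ a b = b → ∃ x : Ω, a • x = x := by
  classical
  let e : Δ ≃ Fin m := hm ▸ Finite.equivFin Δ
  let f : stabilizer G Δ →* Equiv.Perm Δ := MonoidHom.mk'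
    (fun g => (toPerm (g : G)).subtypePerm (mem_stabilizer_set.1 g.2)) fun a b => by
      ext x; exact mul_smul _ _ _
  have hf : ∀ g x, (f g x : Ω) = (g : G) • (x : Ω) := fun _ _ => rfl
  refine ⟨fun g => if h : g ∈ stabilizer G Δ then e.permCongrHom (f ⟨g, h⟩) else 1,
    ⟨fun a ha b hb => ?_, fun a ha => ?_, fun a ha => ?_⟩, fun a ha b hb => ?_⟩
  · simp only [dif_pos ha, dif_pos hb, dif_pos (mul_mem ha hb), ← map_mul]
    rfl
  · simp only [dif_pos ha, EmbeddingLike.map_eq_one_iff, mem_fixingSubgroup_iff]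
    exact ⟨fun h y hy => by simpa [h] using (hf ⟨a, ha⟩ ⟨y, hy⟩).symm,
      fun h => Equiv.ext fun x => Subtype.ext (h x x.2)⟩
  · refine mem_stabilizer_set.2 fun b => ⟨fun hb => ?_, fun hb => by
      rwa [(mem_fixingSubgroup_iff _).1 ha b hb]⟩
    have := (mem_fixingSubgroup_iff _).1 (inv_mem ha) _ hb
    rwa [← this, inv_smul_smul] at hb
  · simp only [dif_pos ha] at hb
    refine ⟨e.symm b, (hf ⟨a, ha⟩ _).symm.trans (congrArg Subtype.val ?_)⟩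
    exact (Equiv.eq_symm_apply e).2 hb

theorem ncard_smul (g : G) (Δ : Set Ω) : Nat.card ↥(g • Δ) = Nat.card Δ :=
  Set.ncard_smul_set g Δ

theorem conj_mem_fixing {g y : G} {Δ : Set Ω} (h : y ∈ fixingSubgroup G Δ) :
    g * y * g⁻¹ ∈ fixingSubgroup G (g • Δ) := (mem_fixingSubgroup_iff _).2 (by
  rintro _ ⟨x, hx, rfl⟩
  simp [mul_smul, (mem_fixingSubgroup_iff _).1 h x hx])

/-- `m` bounds the number of fixed points of elements of order `p`. -/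
def FB (G Ω : Type*) [Group G] [MulAction G Ω] (p m : ℕ) : Prop :=
  ∀ g : G, orderOf g = p → Nat.card (fixedBy Ω g) ≤ m

namespace FB

variable [Finite G] [Finite Ω] {p m : ℕ} [hp : Fact p.Prime] (h : FB G Ω p m) {P : Subgroup G}
  (hP : IsPGroup p P) {Δ Δ' : Set Ω} (hΔ : Nat.card Δ = m)
include h hP hΔ

theorem fix_eq {y : G} (hy : y ∈ P) (y1 : y ≠ 1) (hK : y ∈ fixingSubgroup G Δ) : fixedBy Ω y = Δ := by
  obtain ⟨n, hn⟩ := exists_orderOf_pow hP hy y1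
  refine (Set.eq_of_subset_of_ncard_le (fun x hx => (mem_fixingSubgroup_iff _).1 hK x hx)
    ((Set.ncard_le_ncard (t := fixedBy Ω (y ^ n)) fun x hx => ?_).trans ((h _ hn).trans hΔ.ge))).symm
  exact_mod_cast mem_fixedBy_zpow hx (n : ℤ)

theorem eq_of_mem (hΔ' : Nat.card Δ' = m) {y : G} (hy : y ∈ P) (y1 : y ≠ 1)
    (hK : y ∈ fixingSubgroup G Δ) (hK' : y ∈ fixingSubgroup G Δ') : Δ = Δ' :=
  (h.fix_eq hP hΔ hy y1 hK).symm.trans (h.fix_eq hP hΔ' hy y1 hK')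

theorem ti {y g : G} (hy : y ∈ P) (y1 : y ≠ 1) (hK : y ∈ fixingSubgroup G Δ)
    (hg : g * y * g⁻¹ ∈ fixingSubgroup G Δ) : g ∈ stabilizer G Δ := by
  have := h.eq_of_mem hP hΔ ((ncard_smul g⁻¹ Δ).trans hΔ) hy y1 hK
    (by simpa [mul_assoc] using conj_mem_fixing (g := g⁻¹) hg)
  exact (inv_mem_iff).1 this.symm

theorem cent {y g : G} (hy : y ∈ P) (y1 : y ≠ 1) (hK : y ∈ fixingSubgroup G Δ)
    (hg : g * y = y * g) : g ∈ stabilizer G Δ :=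
  h.ti hP hΔ hy y1 hK (by rwa [hg, mul_inv_cancel_right])

theorem inf_eq_bot (hΔ' : Nat.card Δ' = m) (hne : Δ ≠ Δ') :
    P ⊓ fixingSubgroup G Δ ⊓ fixingSubgroup G Δ' = ⊥ :=
  eq_bot_iff.2 fun y hy => by_contra fun y1 => hne (h.eq_of_mem hP hΔ hΔ' hy.1.1 y1 hy.1.2 hy.2)

variable (hm : ¬ p ^ 2 ∣ m.factorial)
include hm

theorem relIndex_dvd (hM : P ≤ stabilizer G Δ) : (fixingSubgroup G Δ).relIndex P ∣ p := by
  obtain ⟨φ, hφ, -⟩ := exists_act (G := G) Δ hΔ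
  exact hφ.relIndex_dvd (by rwa [Nat.card_perm, Nat.card_fin]) hM hP

theorem two_blocks (hΔ' : Nat.card Δ' = m) (hne : Δ ≠ Δ') (hM : P ≤ stabilizer G Δ)
    (hM' : P ≤ stabilizer G Δ') (hU : P ⊓ fixingSubgroup G Δ ≠ ⊥) (hU' : P ⊓ fixingSubgroup G Δ' ≠ ⊥) :
    Nat.card P = p ^ 2 ∧ Nat.card ↥(P ⊓ fixingSubgroup G Δ) = p ∧ ∀ x ∈ P, x ^ p = 1 := by
  have h1 := h.inf_eq_bot hP hΔ hΔ' hne
  have h3 := card_le_relIndex (inf_le_left : P ⊓ fixingSubgroup G Δ ≤ P) h1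
  have h4 := card_le_relIndex (inf_le_left : P ⊓ fixingSubgroup G Δ' ≤ P) (h.inf_eq_bot hP hΔ' hΔ hne.symm)
  have h5 := (Nat.dvd_prime hp.out).1 (h.relIndex_dvd hP hΔ hm hM)
  have h6 := Nat.le_of_dvd hp.out.pos (h.relIndex_dvd hP hΔ' hm hM')
  have h7 := (one_lt_card_iff_ne_bot _).2 hU'
  have h8 : Nat.card ↥(P ⊓ fixingSubgroup G Δ) = p := by
    obtain ⟨n, hn⟩ := IsPGroup.iff_card.1 (hP.to_inf_left (K := fixingSubgroup G Δ))
    have := (one_lt_card_iff_ne_bot _).2 hU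
    rw [hn] at this h3 ⊢
    have h9 := (pow_le_pow_iff_right₀ hp.out.one_lt).1 ((h3.trans h6).trans_eq (pow_one p).symm)
    rcases n with _ | _ | n
    · simp at this
    · simp
    · omega
  refine ⟨?_, h8, fun x hx => ?_⟩
  · rw [← H4.card_inf_mul_relIndex (fixingSubgroup G Δ) P, inf_comm, h8, h5.resolve_left (by omega), sq]
  · obtain ⟨φ, hφ, -⟩ := exists_act (G := G) Δ hΔ
    obtain ⟨ψ, hψ, -⟩ := exists_act (G := G) Δ' hΔ'
    exact mem_bot.1 (h1.le ⟨⟨P.pow_mem hx p, hφ.pow_mem (by rwa [Nat.card_perm, Nat.card_fin]) hM hP hx⟩,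
      hψ.pow_mem (by rwa [Nat.card_perm, Nat.card_fin]) hM' hP hx⟩)

theorem not_le (hM : ¬ P ≤ stabilizer G Δ) (hU : P ⊓ fixingSubgroup G Δ ≠ ⊥) :
    ∃ x ∈ P ⊓ fixingSubgroup G Δ, orderOf x = p ∧ Nat.card ↥(P ⊓ centralizer {x}) = p ^ 2 ∧
      (∀ y ∈ P ⊓ centralizer {x}, y ^ p = 1) ∧ ¬ P ≤ centralizer {x} ∧
      ∃ y ∈ P ⊓ centralizer {x}, y ∉ fixingSubgroup G Δ := by
  obtain ⟨φ, hφ, -⟩ := exists_act (G := G) Δ hΔ
  set T := P ⊓ stabilizer G Δ with hT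
  obtain ⟨g, ⟨gP, gN⟩, gT⟩ := SetLike.exists_of_lt (H4.lt_inf_normalizer_of_lt hP
    (lt_of_le_of_ne (inf_le_left : T ≤ P) fun e => hM (e ▸ inf_le_right)))
  have hPT : IsPGroup p T := hP.to_inf_left
  have e1 : T ⊓ fixingSubgroup G Δ = P ⊓ fixingSubgroup G Δ := by
    rw [hT, inf_assoc, inf_eq_right.2 hφ.le]
  obtain ⟨x, hx, x1⟩ := ne_bot_iff.1 hU
  have xT : x ∈ T := ⟨hx.1, hφ.le hx.2⟩
  obtain ⟨h1, h3, h4⟩ := h.two_blocks hPT hΔ hm ((ncard_smul g Δ).trans hΔ)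
    (fun e => gT ⟨gP, e.symm⟩) inf_le_right (fun t ht => by
      have : (g⁻¹ * t * g) • Δ = Δ := ((mem_normalizer_iff''.1 gN t).1 ht).2
      rw [mem_stabilizer_iff]
      conv_rhs => rw [← this]
      simp [mul_smul]) (e1 ▸ hU) (ne_bot_iff.2
      ⟨g * x * g⁻¹, ⟨(mem_normalizer_iff.1 gN x).1 xT, conj_mem_fixing hx.2⟩, by simpa using x1⟩)
  have e2 : P ⊓ centralizer {x} = T := le_antisymm
    (fun y hy => ⟨hy.1, h.cent hP hΔ hx.1 x1 hx.2 (mem_centralizer_singleton_iff.1 hy.2)⟩)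
    fun y hy => ⟨hy.1, mem_centralizer_singleton_iff.2 (congrArg Subtype.val
      ((IsPGroup.isMulCommutative_of_card_eq_prime_sq h1).is_comm.comm (⟨y, hy⟩ : T) ⟨x, xT⟩))⟩
  refine ⟨x, hx, orderOf_eq_prime (h4 x xT) x1, e2 ▸ h1, e2 ▸ h4,
    fun k => hM fun y hy => (e2.le ⟨hy, k hy⟩).2, ?_⟩
  by_contra! k
  rw [inf_eq_left.2 fun y hy => k y (e2.ge hy), h1] at h3
  nlinarith [hp.out.two_le]

end FB

/-- the three configurations of a Sylow subgroup relative to the maximal fixed point sets -/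
theorem FB.tri [Finite G] [Finite Ω] {p m : ℕ} [hp : Fact p.Prime] (h : FB G Ω p m) (P : Sylow p G)
    {t : G} (ht : orderOf t = p) (hm : Nat.card (fixedBy Ω t) = m) :
    (∃ Δ : Set Ω, Nat.card Δ = m ∧ ¬ (P : Subgroup G) ≤ stabilizer G Δ ∧
      (P : Subgroup G) ⊓ fixingSubgroup G Δ ≠ ⊥) ∨
    (∃ Δ Δ' : Set Ω, Nat.card Δ = m ∧ Nat.card Δ' = m ∧ Δ ≠ Δ' ∧ (P : Subgroup G) ≤ stabilizer G Δ ∧
      (P : Subgroup G) ≤ stabilizer G Δ' ∧ (P : Subgroup G) ⊓ fixingSubgroup G Δ ≠ ⊥ ∧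
      (P : Subgroup G) ⊓ fixingSubgroup G Δ' ≠ ⊥) ∨
    (∃ Δ : Set Ω, Nat.card Δ = m ∧ (P : Subgroup G) ≤ stabilizer G Δ ∧
      (P : Subgroup G) ⊓ fixingSubgroup G Δ ≠ ⊥ ∧ ∀ u ∈ (P : Subgroup G) ⊓ fixingSubgroup G Δ, u ≠ 1 →
        ∀ g : G, g * u * g⁻¹ ∈ stabilizer G Δ → g ∈ stabilizer G Δ) := by
  by_contra! k
  obtain ⟨k1, k2, k3⟩ := k
  have k4 : ∀ Δ : Set Ω, Nat.card Δ = m → (P : Subgroup G) ⊓ fixingSubgroup G Δ ≠ ⊥ →
      (P : Subgroup G) ≤ stabilizer G Δ := fun Δ hΔ hU => by_contra fun hn => hU (k1 Δ hΔ hn)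
  obtain ⟨c, hc⟩ := H4.exists_conj_smul_le_sylow P (T := zpowers t)
    (IsPGroup.of_card (n := 1) (by rw [Nat.card_zpowers, ht, pow_one]))
  have t1 : t ≠ 1 := fun e => hp.out.ne_one (by rw [← ht, e, orderOf_one])
  have hΔ := (ncard_smul c (fixedBy Ω t)).trans hm
  have hU : (P : Subgroup G) ⊓ fixingSubgroup G (c • fixedBy Ω t) ≠ ⊥ :=
    ne_bot_iff.2 ⟨c * t * c⁻¹, ⟨hc (smul_mem_pointwise_smul _ _ _ (mem_zpowers t)),
      conj_mem_fixing ((mem_fixingSubgroup_iff _).2 fun _ hx => hx)⟩, by simpa using t1⟩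
  obtain ⟨u, hu, u1, g, hg, gM⟩ := k3 _ hΔ (k4 _ hΔ hU) hU
  obtain ⟨d, hd, e⟩ := H4.exists_conj_le_sylow_of_le P (k4 _ hΔ hU) (T := zpowers (g * u * g⁻¹))
    (isPGroup_zpowers_conj P.isPGroup' hu.1 g) (zpowers_le.2 hg)
  have hΔ' := (ncard_smul (d * g) _).trans hΔ
  have hU' : (P : Subgroup G) ⊓ fixingSubgroup G ((d * g) • c • fixedBy Ω t) ≠ ⊥ :=
    ne_bot_iff.2 ⟨d * g * u * (d * g)⁻¹, ⟨by
      simpa [mul_assoc] using e _ (mem_zpowers _), conj_mem_fixing hu.2⟩, fun e => u1 (conj_eq_one_iff.1 e)⟩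
  refine hU' (k2 _ _ hΔ hΔ' (fun e => gM ?_) (k4 _ hΔ hU) (k4 _ hΔ' hU') hU)
  exact (Subgroup.mul_mem_cancel_left _ hd).1 e.symm

end H81
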