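import Mathlib
import Cfsg.Agent.Base
import Cfsg.Agent.Lib.PGroup.Basic

/-! The holomorph of the cyclic group of order 8. -/

set_option autoImplicit false

namespace H81

open Subgroup

/-- The holomorph of the cyclic group of order 8. -/
@[ext] structure Hol8 where
  a : ZMod 8
  e : Bool
  f : Bool
deriving DecidableEq, Fintype

namespace Hol8

/-- The multiplier. -/
def m (e f : Bool) : ZMod 8 := (bif e then -1 else 1) * (bif f then 5 else 1)

instance : Mul Hol8 := ⟨fun x y => ⟨x.a + m x.e x.f * y.a, xor x.e y.e, xor x.f y.f⟩⟩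
instance : One Hol8 := ⟨⟨0, false, false⟩⟩
instance : Inv Hol8 := ⟨fun x => ⟨-(m x.e x.f * x.a), x.e, x.f⟩⟩

theorem mul_def (x y : Hol8) : x * y = ⟨x.a + m x.e x.f * y.a, xor x.e y.e, xor x.f y.f⟩ := rfl

theorem m_xor : ∀ e f e' f', m (xor e e') (xor f f') = m e f * m e' f' := by decide

instance : Group Hol8 := Group.ofLeftAxioms
  (fun x y z => by simp only [mul_def, m_xor, Bool.xor_assoc, mul_add, add_assoc, mul_assoc])
  (by decide) (by decide)

theorem card : Nat.card Hol8 = 2 ^ 5 := by rw [Nat.card_eq_fintype_card]; decide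

theorem isPGroup : IsPGroup 2 Hol8 := IsPGroup.of_card card

variable {G : Type*} [Group G] {ρ v z : G}

/-- The homomorphism given by generators. -/
def lift (h8 : ρ ^ 8 = 1) (hv : v * v = 1) (hz : z * z = 1) (hc : z * v = v * z)
    (h1 : v * ρ * v⁻¹ = ρ⁻¹) (h2 : z * ρ * z⁻¹ = ρ ^ 5) : Hol8 →* G :=
  MonoidHom.mk' (fun x => ρ ^ x.a.val * (bif x.e then v else 1) * (bif x.f then z else 1)) (by
    have add : ∀ a b : ZMod 8, ρ ^ (a + b).val = ρ ^ a.val * ρ ^ b.val := fun a b => by
      rw [ZMod.val_add, ← pow_eq_pow_mod _ h8, pow_add]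
    have mul : ∀ a b : ZMod 8, ρ ^ (a * b).val = (ρ ^ a.val) ^ b.val := fun a b => by
      rw [ZMod.val_mul, ← pow_eq_pow_mod _ h8, pow_mul]
    have h7 : ρ ^ 7 = ρ⁻¹ := eq_inv_of_mul_eq_one_left (by rw [← pow_succ, h8])
    have k : ∀ (s : G) (n j : ℕ), s * ρ * s⁻¹ = ρ ^ j → s * ρ ^ n = (ρ ^ j) ^ n * s :=
      fun s n j e => by rw [← e, conj_pow]; group
    have kv := fun n => k v n 7 (h1.trans h7.symm)
    have kz := fun n => k z n 5 h2
    have kvz := fun n => k (v * z) n 3 (by
      calc _ = v * (z * ρ * z⁻¹) * v⁻¹ := by group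
        _ = (ρ ^ 8)⁻¹ * ρ ^ 3 := by rw [h2, ← conj_pow, h1]; group
        _ = _ := by rw [h8]; group)
    have comb : ∀ e f e' f' : Bool,
        (bif xor e e' then v else 1) * (bif xor f f' then z else 1) =
        (bif e then v else 1) * (bif f then z else 1) *
          ((bif e' then v else 1) * (bif f' then z else 1)) := by
      have a1 : ∀ x, v * (v * x) = x := fun x => by rw [← mul_assoc, hv, one_mul]
      have a2 : ∀ x, z * (v * x) = v * (z * x) := fun x => by rw [← mul_assoc, hc, mul_assoc]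
      intro e f e' f'
      cases e <;> cases f <;> cases e' <;> cases f' <;> simp [mul_assoc, a1, a2, hv, hz, hc]
    have mv : ∀ (e f : Bool) (b : ZMod 8), (bif e then v else 1) * (bif f then z else 1) *
        ρ ^ b.val = ρ ^ (m e f * b).val * ((bif e then v else 1) * (bif f then z else 1)) := by
      intro e f b
      rw [mul]
      cases e <;> cases f
      · simp [show (m false false).val = 1 from rfl]
      · simpa [show (m false true).val = 5 from rfl] using kz b.val
      · simpa [show (m true false).val = 7 from rfl] using kv b.val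
      · simpa [show (m true true).val = 3 from rfl] using kvz b.val
    intro x y
    simp only [mul_def, add, mul_assoc]
    rw [comb, ← mul_assoc (ρ ^ (m x.e x.f * y.a).val), ← mv]
    simp only [mul_assoc])

variable {h8 : ρ ^ 8 = 1} {hv : v * v = 1} {hz : z * z = 1} {hc : z * v = v * z}
    {h1 : v * ρ * v⁻¹ = ρ⁻¹} {h2 : z * ρ * z⁻¹ = ρ ^ 5}

theorem lift_apply (x : Hol8) : lift h8 hv hz hc h1 h2 x =
    ρ ^ x.a.val * (bif x.e then v else 1) * (bif x.f then z else 1) := rfl

theorem lift_inj (h4 : ρ ^ 4 ≠ 1) : Function.Injective (lift h8 hv hz hc h1 h2) := by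
  rw [← MonoidHom.ker_eq_bot_iff]
  by_contra h0
  obtain ⟨⟨x, k1, k2⟩, k3⟩ := ne_bot_iff_exists_ne_one.1 (H5.inf_center_ne_bot isPGroup _ h0)
  rcases (by decide : ∀ x : Hol8, (∀ y, y * x = x * y) → x = 1 ∨ x = ⟨4, false, false⟩) x
    (mem_center_iff.1 k2) with rfl | rfl
  · exact k3 rfl
  · exact h4 (by simpa [lift_apply, show (4 : ZMod 8).val = 4 from rfl] using k1)

/-- The semidihedral subgroup of index 2. -/
def sd : Subgroup Hol8 where
  carrier := {x | (x.a.val % 2 = 1) = (x.f = true)}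
  mul_mem' := by
    simp only [Set.mem_setOf_eq]
    exact fun {a b} => (by decide : ∀ a b : Hol8, (a.a.val % 2 = 1) = (a.f = true) →
      (b.a.val % 2 = 1) = (b.f = true) → ((a * b).a.val % 2 = 1) = ((a * b).f = true)) a b
  one_mem' := by simp only [Set.mem_setOf_eq]; decide
  inv_mem' := by simp only [Set.mem_setOf_eq]; decide

theorem mem_sd {x : Hol8} : x ∈ sd ↔ (x.a.val % 2 = 1 ↔ x.f = true) :=
  eq_iff_iff

theorem index_sd : sd.index = 2 :=
  index_eq_two_iff.2 ⟨⟨1, false, false⟩, by simp only [mem_sd]; decide⟩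

theorem invol_sd : ∀ x : Hol8, (x.a.val % 2 = 1 ↔ x.f = true) → x * x = 1 → x ≠ 1 →
    x = ⟨4, false, false⟩ ∨ ∃ y : Hol8, x = y * ⟨0, true, false⟩ * y⁻¹ := by decide

theorem sq_eq : ∀ x : Hol8, x * x * (x * x) = 1 → x * x ≠ 1 → x * x = ⟨4, false, false⟩ := by
  decide

theorem aut_cases (β : MulAut Hol8) : β ⟨4, false, false⟩ = ⟨4, false, false⟩ ∧
    (β ⟨0, false, true⟩ = ⟨0, false, true⟩ ∨ β ⟨0, false, true⟩ = ⟨4, false, true⟩) := by
  have h : β ⟨4, false, false⟩ = ⟨4, false, false⟩ := by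
    rw [show (⟨4, false, false⟩ : Hol8) = ⟨2, false, false⟩ * ⟨2, false, false⟩ by decide, map_mul]
    refine (sq_eq _ ?_ ?_).trans (by decide)
    · simp only [← map_mul, MulEquiv.map_eq_one_iff]; decide
    · simp only [← map_mul, ne_eq, MulEquiv.map_eq_one_iff]; decide
  refine ⟨h, (by decide : ∀ x : Hol8, x * x = 1 → x ≠ 1 → x ≠ ⟨4, false, false⟩ →
    (∀ u, x * u = u * x ∨ x * u = ⟨4, false, false⟩ * u * x) →
    x = ⟨0, false, true⟩ ∨ x = ⟨4, false, true⟩) _ ?_ ?_ ?_ fun u => ?_⟩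
  · simp only [← map_mul, MulEquiv.map_eq_one_iff]; decide
  · simp only [ne_eq, MulEquiv.map_eq_one_iff]; decide
  · rw [← h, ne_eq, β.apply_eq_iff_eq]; decide
  · obtain ⟨u, rfl⟩ := β.surjective u
    rw [← h]
    simp only [← map_mul, β.apply_eq_iff_eq]
    revert u; decide

end Hol8

end H81
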