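import Mathlib
import Cfsg.Agent.Base
import Cfsg.Agent.Lib.Fusion.R2
import Cfsg.Agent.Lib.Transfer.Alperin
import Cfsg.Agent.Lib.SE42.TransferPow
import Cfsg.Agent.Lib.FGS83.MacA
import Cfsg.Agent.Lib.H81.Fix4a

/-! In a perfect group, an element of order 3 with centralizer of order 9 in a nonabelian Sylow
3-subgroup is real. -/

set_option autoImplicit false
set_option linter.style.haveILetI false
set_option linter.unusedSectionVars false

namespace H81

open Cfsg Subgroup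
open scoped Pointwise

theorem prod_ne_nine : ∀ X : Finset (Multiplicative (ZMod 3 × ZMod 3)), ¬ 3 ∣ X.card →
    (∀ u ∈ X, u⁻¹ ∉ X) → ∏ u ∈ X, u ≠ 1 := by
  decide +kernel

theorem prod_orbit_ne {V : Type*} [CommGroup V] [Finite V] (hV : ∀ v : V, v ^ 3 = 1)
    (hc : Nat.card V = 3 ^ 2) (B : Subgroup (MulAut V)) [Fintype B] (hB : ¬ 3 ∣ Nat.card B) {v : V}
    (h : ∀ β ∈ B, β v ≠ v⁻¹) : ∏ β : B, β.1 v ≠ 1 := by
  classical
  haveI : Fact (Nat.Prime 3) := ⟨Nat.prime_three⟩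
  have v1 : v ≠ 1 := fun e => h 1 (one_mem _) (by simp [e])
  obtain ⟨w, -, hw⟩ := SetLike.exists_of_lt (lt_top_iff_ne_top.2 fun e : zpowers v = ⊤ => by
    have := Nat.card_zpowers v
    rw [e, card_top, hc, orderOf_eq_prime (hV v) v1] at this
    omega)
  have hz : ∀ (z : V) (a b : ZMod 3), z ^ (a + b).val = z ^ a.val * z ^ b.val := fun z a b => by
    rw [ZMod.val_add, ← pow_add, ← pow_eq_pow_mod _ (hV z)]
  have hz' : ∀ (z : V) (i : ℤ), z ^ (i : ZMod 3).val = z ^ i := fun z i => by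
    rw [← zpow_natCast]
    exact zpow_eq_zpow_iff_modEq.2 (Int.ModEq.of_dvd (Int.natCast_dvd_natCast.2
      (orderOf_dvd_of_pow_eq_one (hV z))) ((ZMod.intCast_eq_intCast_iff _ _ _).1 (by simp)))
  let f : Multiplicative (ZMod 3 × ZMod 3) →* V := MonoidHom.mk'
    (fun u => v ^ u.toAdd.1.val * w ^ u.toAdd.2.val) fun a b => by
      simp only [toAdd_mul, Prod.fst_add, Prod.snd_add, hz, mul_mul_mul_comm]
  let e := MulEquiv.ofBijective f (Function.Surjective.bijective_of_nat_card_le (fun u => by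
    obtain ⟨i, j, rfl⟩ := H93.exists_eq_mul_of_card_le hV hc.le v1 hw u
    exact ⟨.ofAdd (i, j), by simp [f, hz']⟩) (by simp [hc]))
  have hf : ∀ u ∈ Finset.univ.image fun β : B => β.1 v,
      (Finset.univ.filter fun β : B => β.1 v = u).card = (Finset.univ.filter fun β : B => β.1 v = v).card := by
    simp only [Finset.mem_image, Finset.mem_univ, true_and]
    rintro _ ⟨γ, rfl⟩
    refine (Finset.card_bijective (γ * ·) (Group.mulLeft_bijective γ) fun β => ?_).symm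
    simp
  have h1 := Finset.card_eq_sum_card_image (fun β : B => β.1 v) Finset.univ
  rw [Finset.sum_const_nat hf, Finset.card_univ, ← Nat.card_eq_fintype_card] at h1
  rw [Finset.prod_comp (fun u : V => u) fun β : B => β.1 v, Finset.prod_congr rfl fun u hu => by rw [hf u hu],
    Finset.prod_pow]
  intro k
  have h3 := (pow_eq_one_iff_of_coprime ((Nat.Prime.coprime_iff_not_dvd Nat.prime_three).2
    fun hd => hB (h1 ▸ hd.mul_left _))).1 ⟨hV _, k⟩
  refine prod_ne_nine ((Finset.univ.image fun β : B => β.1 v).map e.symm.toEquiv.toEmbedding)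
    (by rw [Finset.card_map]; exact fun hd => hB (h1 ▸ hd.mul_right _)) (fun u hu hu' => ?_) ?_
  · simp only [Finset.mem_map, Finset.mem_image, Finset.mem_univ, true_and] at hu hu'
    obtain ⟨_, ⟨β, rfl⟩, rfl⟩ := hu
    obtain ⟨_, ⟨γ, rfl⟩, e1⟩ := hu'
    have e2 : γ.1 v = (β.1 v)⁻¹ := e.symm.injective (e1.trans (map_inv e.symm _).symm)
    exact h _ (β⁻¹ * γ).2 (by simp [e2])
  · rw [Finset.prod_map]
    exact (map_prod e.symm _ _).symm.trans (by rw [h3, map_one])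

variable {G : Type*} [Group G] [Finite G]

theorem frattini_of_cent {p : ℕ} [hp : Fact p.Prime] (hG : IsPGroup p G) {y : G}
    (hc : Nat.card (centralizer {y}) = p ^ 2) (he : ∀ c ∈ centralizer {y}, c ^ p = 1) :
    (frattini G).index = p ^ 2 ∧ ∀ f ∈ frattini G, ∃ d, d * y * d⁻¹ = y * f := by
  have h1 : p ^ 2 ∣ (frattini G).index := H5.sq_dvd_index_of_not_isCyclic hG (fun h => by
    obtain ⟨c, hc'⟩ := IsCyclic.exists_ofOrder_eq_natCard (α := centralizer {y})
    have := Nat.le_of_dvd hp.out.pos (orderOf_dvd_of_pow_eq_one (Subtype.ext (he c c.2) : c ^ p = 1))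
    nlinarith [hp.out.two_le]) le_rfl
  have h2 := H83.Mac.ncard_le_mul (s := Set.univ) (t := Set.range fun d => y⁻¹ * (d * y * d⁻¹))
    (fun d => y⁻¹ * (d * y * d⁻¹)) (fun d _ => ⟨d, rfl⟩) (p ^ 2) fun a _ => by
      rw [← hc, H83.Mac.card_eq_ncard]
      refine H83.Mac.ncard_le_of_inj (fun d => a⁻¹ * d) (fun d hd => mem_centralizer_singleton_iff.2 ?_)
        fun _ _ _ _ e => mul_left_cancel e
      have := mul_left_cancel hd.2
      calc a⁻¹ * d * y = a⁻¹ * (d * y * d⁻¹) * d := by group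
        _ = _ := by rw [this]; group
  have h3 : (Set.range fun d => y⁻¹ * (d * y * d⁻¹)) ⊆ frattini G := by
    rintro _ ⟨d, rfl⟩
    simpa [commutatorElement_def, mul_assoc] using H5.commutatorElement_mem_frattini hG y⁻¹ d
  have h4 := (frattini G).card_mul_index
  have h5 := Set.ncard_le_ncard h3
  rw [Set.ncard_univ, ← h4] at h2
  rw [← H83.Mac.card_eq_ncard] at h5
  have h6 := Nat.le_of_dvd (Nat.pos_of_ne_zero FiniteIndex.index_ne_zero) h1
  have h7 : 0 < Nat.card (frattini G) := Nat.card_pos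
  have h8 := pow_pos hp.out.pos 2
  refine ⟨le_antisymm (by nlinarith) h6, fun f hf => ?_⟩
  obtain ⟨d, hd⟩ := (Set.eq_of_subset_of_ncard_le h3 (by
    rw [← H83.Mac.card_eq_ncard]; nlinarith)).ge hf
  exact ⟨d, by rw [← hd]; group⟩

theorem frattini_of_cent' {p : ℕ} [hp : Fact p.Prime] {D : Subgroup G} (hD : IsPGroup p D) {y : G}
    (hy : y ∈ D) (hc : Nat.card ↥(D ⊓ centralizer {y}) = p ^ 2)
    (he : ∀ c ∈ D ⊓ centralizer {y}, c ^ p = 1) :
    (frattini D).index = p ^ 2 ∧ ∀ n : normalizer (D : Set G),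
      ⟨y, hy⟩ * D.normalizerMonoidHom n ⟨y, hy⟩ ∈ frattini D → IsConj y y⁻¹ := by
  have e : centralizer {(⟨y, hy⟩ : D)} = (D ⊓ centralizer {y}).subgroupOf D := by
    ext g
    simp [mem_centralizer_singleton_iff, mem_subgroupOf, Subtype.ext_iff]
  obtain ⟨h1, h2⟩ := frattini_of_cent hD (y := ⟨y, hy⟩) (by
    rw [e, Nat.card_congr (subgroupOfEquivOfLe inf_le_left).toEquiv, hc])
    fun c hc => Subtype.ext (he c (by rwa [e] at hc))
  refine ⟨h1, fun n hn => ?_⟩
  obtain ⟨d, hd⟩ := h2 _ (inv_mem ((inferInstance : (frattini D).Normal).conj_mem' _ hn ⟨y, hy⟩))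
  have : (d : G) * y * (d : G)⁻¹ = y * (y⁻¹ * (y * (n * y * (n : G)⁻¹)) * y)⁻¹ := congrArg Subtype.val hd
  refine isConj_iff.2 ⟨(n : G)⁻¹ * d, ?_⟩
  rw [show (n : G)⁻¹ * d * y * ((n : G)⁻¹ * d)⁻¹ = (n : G)⁻¹ * (d * y * (d : G)⁻¹) * n by group, this]
  group

theorem conj_inf_cent {P : Subgroup G} {n : G} (hn : n ∈ normalizer (P : Set G)) (x : G) :
    P ⊓ centralizer {n * x * n⁻¹} = (P ⊓ centralizer {x}).map (MulAut.conj n).toMonoidHom := by
  ext c
  rw [mem_map_equiv]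
  simp only [mem_inf, mem_centralizer_singleton_iff, MulAut.conj_symm_apply]
  refine and_congr (mem_normalizer_iff''.1 hn c) ⟨fun e => ?_, fun e => ?_⟩
  · rw [show n⁻¹ * c * n * x = n⁻¹ * (c * (n * x * n⁻¹)) * n by group, e]; group
  · rw [show c * (n * x * n⁻¹) = n * (n⁻¹ * c * n * x) * n⁻¹ by group, e]; group

theorem normalizer_le_of_not_real (P : Sylow 3 G) {D H : Subgroup G} (hD : D < P) (hF : H4.FullyNorm 3 P D)
    (hH : H4.CatchesOver P D H) (hC : centralizer (D : Set G) ≤ H) {y : G} (hy : y ∈ D)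
    (oy : orderOf y = 3) (hc : Nat.card ↥((P : Subgroup G) ⊓ centralizer {y}) = 3 ^ 2)
    (he : ∀ c ∈ (P : Subgroup G) ⊓ centralizer {y}, c ^ 3 = 1) (hn : ¬ (P : Subgroup G) ≤ centralizer {y})
    (hr : ¬ IsConj y y⁻¹) : normalizer (D : Set G) ≤ H := by
  haveI : Fact (Nat.Prime 3) := ⟨Nat.prime_three⟩
  by_contra hne
  have hP := P.isPGroup'
  have hpD := hP.to_le hD.le
  obtain ⟨z, hz, oz, zc⟩ := H42.exists_central_of_isPGroup hP (bot_le.trans_lt hD).ne'
  have zD : z ∈ D := hH.inf_centralizer_le hP hD hF hC hne ⟨hz, fun d hd => zc d (hD.le hd)⟩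
  have hc' : Nat.card ↥(D ⊓ centralizer {y}) = 3 ^ 2 := by
    have h1 : zpowers y < D ⊓ centralizer {y} := lt_of_le_of_ne
      (zpowers_le.2 ⟨hy, mem_centralizer_singleton_iff.2 rfl⟩) fun e => hn fun g hg => by
        have h3 : zpowers z = zpowers y := eq_of_le_of_card_ge (zpowers_le.2 (e.ge
          ⟨zD, mem_centralizer_singleton_iff.2 (zc y (hD.le hy)).symm⟩)) (by
            rw [Nat.card_zpowers, Nat.card_zpowers, oy, oz])
        obtain ⟨i, rfl⟩ := h3.ge (mem_zpowers y)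
        exact mem_centralizer_singleton_iff.2 ((zc g hg).zpow_right i)
    have h2 := Nat.lt_of_le_of_ne (card_le_of_le h1.le) fun e => h1.ne (eq_of_le_of_card_ge h1.le e.ge)
    have h3 := card_dvd_of_le (inf_le_inf_right (centralizer {y}) hD.le)
    rw [hc] at h3
    rw [Nat.card_zpowers, oy] at h2
    obtain ⟨k, hk, e⟩ := (Nat.dvd_prime_pow Nat.prime_three).1 h3
    rw [e] at h2 ⊢
    interval_cases k <;> simp_all
  obtain ⟨h1, h2⟩ := frattini_of_cent' hpD hy hc' fun c hc => he c ⟨hD.le hc.1, hc.2⟩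
  obtain ⟨g, ⟨gP, gN⟩, gD⟩ := SetLike.exists_of_lt (H4.lt_inf_normalizer_of_lt hP hD)
  set ρ := D.normalizerMonoidHom with hρ
  set T := ((P : Subgroup G).subgroupOf (normalizer (D : Set G))).map ρ with hT
  have hpT : IsPGroup 3 T := hP.comap_subtype.map ρ
  by_cases hτ : ρ ⟨g, gN⟩ ∈ pCoreOf 3 ρ.range
  swap
  · obtain ⟨_, ⟨n, rfl⟩, e⟩ := (H93.exists_r2_frattini hpD hpT (map_le_range _ _)
      (mem_map_of_mem ρ (show (⟨g, gN⟩ : normalizer (D : Set G)) ∈ _ from gP)) hτ h1.le).neg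
    exact hr (h2 n (e _))
  obtain ⟨k, hk, e⟩ := H4.exists_conj_le_of_not_dvd_relIndex (K := ρ.range) hpT (fun hd =>
    H4.fullyNorm_iff.1 hF (hd.trans (by
      rw [hT, MonoidHom.range_eq_map, relIndex_map_map, top_sup_eq, relIndex_top_right]
      exact index_dvd_of_le le_sup_left))) (H70.isPGroup_pCoreOf 3 _) (H70.pCoreOf_le 3 _)
  refine hne (hH.normalizer_le_of_normal hP hD hF
    (X := ((pCoreOf 3 ρ.range).comap ρ).map (normalizer (D : Set G)).subtype) ?_
    (le_normalizer_iff.2 ?_) fun k => gD (k (mem_inf.2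
      ⟨gP, mem_map_of_mem (normalizer (D : Set G)).subtype (x := ⟨g, gN⟩) hτ⟩)))
  · rintro _ ⟨n, hn, rfl⟩
    obtain ⟨m, hm, e1⟩ := e _ (le_normalizer_iff.1 (H70.le_normalizer_pCoreOf 3 _) _ (inv_mem hk) _ hn)
    have h3 : m⁻¹ * n ∈ ρ.ker := by rw [MonoidHom.mem_ker, map_mul, map_inv, e1]; group
    rw [normalizerMonoidHom_ker] at h3
    simpa using mul_mem (hH.inf_normalizer_le hD ⟨hm, m.2⟩) (hC h3)
  · rintro a ha _ ⟨n, hn, rfl⟩
    refine ⟨⟨a, ha⟩ * n * ⟨a, ha⟩⁻¹, ?_, rfl⟩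
    rw [SetLike.mem_coe, mem_comap, map_mul, map_mul, map_inv]
    exact le_normalizer_iff.1 (H70.le_normalizer_pCoreOf 3 ρ.range) _ (MonoidHom.mem_range.2 ⟨_, rfl⟩) _ hn

theorem mc3 (hG : commutator G = ⊤) (P : Sylow 3 G) {x : G} (hx : x ∈ (P : Subgroup G)) (ox : orderOf x = 3)
    (hc : Nat.card ↥((P : Subgroup G) ⊓ centralizer {x}) = 3 ^ 2)
    (he : ∀ c ∈ (P : Subgroup G) ⊓ centralizer {x}, c ^ 3 = 1)
    (hn : ¬ (P : Subgroup G) ≤ centralizer {x}) : IsConj x x⁻¹ := by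
  classical
  haveI : Fact (Nat.Prime 3) := ⟨Nat.prime_three⟩
  by_contra hr
  have hP := P.isPGroup'
  let X : G → Prop := fun y => ∃ n ∈ normalizer ((P : Subgroup G) : Set G), y = n * x * n⁻¹
  have fus : ∀ g : G, g * x * g⁻¹ ∈ (P : Subgroup G) → X (g * x * g⁻¹) := fun g hg => by
    refine (H4.alperin_catches P (Φ := fun A g => ∀ a ∈ A, X a ↔ X (g * a * g⁻¹))
      ⟨fun h1 _ _ h2 a ha => h2 a (h1 ha), fun {A g k} _ _ _ h1 h2 a ha => ?_,
        fun {A g} _ _ h1 => ?_⟩ (fun _ => True) (H4.exists_fullyNorm_conj_true P) (fun n hn a _ => ?_)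
      (fun D hD hF _ H hH e => ?_) (zpowers_le.2 hx) (H4.conj_smul_le_iff.2 ?_) x (mem_zpowers x)).1
      ⟨1, one_mem _, by simp⟩
    · simpa [mul_assoc] using (h1 a ha).trans (h2 _ (smul_mem_pointwise_smul _ _ _ ha))
    · rintro _ ⟨a, ha, rfl⟩
      simpa [mul_assoc] using (h1 a ha).symm
    · exact ⟨fun ⟨m, hm, e⟩ => ⟨n * m, mul_mem hn hm, by rw [e]; group⟩,
        fun ⟨m, hm, e⟩ => ⟨n⁻¹ * m, mul_mem (inv_mem hn) hm, by
          rw [show a = n⁻¹ * (n * a * n⁻¹) * n by group, e]; group⟩⟩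
    · by_cases hy : ∃ y ∈ D, X y
      · obtain ⟨_, hy, n, hN, rfl⟩ := hy
        refine normalizer_le_of_not_real P hD hF hH (fun c hc => (e c).2
          ⟨centralizer_le_normalizer _ hc, fun a ha => by rw [← hc a ha, mul_inv_cancel_right]⟩) hy
          (((MulAut.conj n).orderOf_eq x).trans ox) ?_ ?_ (fun k => hn fun c hc => ?_) fun k => hr ?_
        · rw [conj_inf_cent hN, card_map_of_injective (MulAut.conj n).injective, hc]
        · rw [conj_inf_cent hN]
          rintro _ ⟨c, hc, rfl⟩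
          rw [← map_pow, he c hc, map_one]
        · have := (mem_normalizer_iff.1 hN c).1 hc
          obtain ⟨d, hd, e⟩ := (conj_inf_cent hN x).le ⟨this, k this⟩
          exact (show d = c from (MulAut.conj n).injective e) ▸ hd.2
        · exact (isConj_iff.2 ⟨n, rfl⟩).trans (k.trans (isConj_iff.2 ⟨n⁻¹, by group⟩))
      · push Not at hy
        exact fun n hn => (e n).2 ⟨hn, fun a ha =>
          iff_of_false (hy a ha) (hy _ ((mem_normalizer_iff.1 hn a).1 ha))⟩
    · rintro _ ⟨i, rfl⟩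
      simpa using zpow_mem hg i
  obtain ⟨h1, h2⟩ := frattini_of_cent' hP hx hc he
  letI : CommGroup (P ⧸ frattini P) :=
    { QuotientGroup.Quotient.group (frattini P) with
      mul_comm := (Normal.quotient_commutative_iff_commutator_le.2
        (H5.commutator_le_frattini hP)).is_comm.comm }
  have hV : ∀ v : P ⧸ frattini P, v ^ 3 = 1 := fun v => by
    obtain ⟨v, rfl⟩ := QuotientGroup.mk_surjective v
    exact (QuotientGroup.eq_one_iff (v ^ 3)).2 (H5.pow_mem_frattini hP v)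
  let ρ := H2.quotAut (P : Subgroup G).normalizerMonoidHom (frattini P)
    fun a _ => H5.aut_mem_of_characteristic inferInstance _
  have hρ : ∀ a (y : P), ρ a (y : P ⧸ frattini P) = ((P : Subgroup G).normalizerMonoidHom a y : P) :=
    fun _ _ => rfl
  letI := Fintype.ofFinite ρ.range
  let π : P ⧸ frattini P →* P ⧸ frattini P := MonoidHom.mk' (fun v => ∏ β : ρ.range, β.1 v)
    fun a b => by simp [Finset.prod_mul_distrib]
  have h3 : π ((⟨x, hx⟩ : P) : P ⧸ frattini P) ≠ 1 := prod_orbit_ne hV h1 ρ.range (fun hd =>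
    H4.not_dvd_relIndex_sylow P le_normalizer (hd.trans (by
      rw [← index_ker]
      refine index_dvd_of_le fun a ha => MulEquiv.ext fun v => ?_
      obtain ⟨v, rfl⟩ := QuotientGroup.mk_surjective v
      rw [hρ, show (P : Subgroup G).normalizerMonoidHom a v = ⟨a, ha⟩ * v * ⟨a, ha⟩⁻¹ from rfl]
      simp))) (by
    rintro _ ⟨n, rfl⟩ e
    refine hr (h2 n ((QuotientGroup.eq_one_iff _).1 ?_))
    rw [QuotientGroup.mk_mul, ← hρ, e, mul_inv_cancel])
  have h4 : ∀ (g : G) (hg : g * x * g⁻¹ ∈ (P : Subgroup G)),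
      π ((⟨_, hg⟩ : P) : P ⧸ frattini P) = π ((⟨x, hx⟩ : P) : P ⧸ frattini P) := fun g hg => by
    obtain ⟨n, hN, e⟩ := fus g hg
    have : ((⟨_, hg⟩ : P) : P ⧸ frattini P) = ρ ⟨n, hN⟩ ((⟨x, hx⟩ : P) : P ⧸ frattini P) :=
      congrArg _ (Subtype.ext e)
    rw [this]
    exact Fintype.prod_equiv (Equiv.mulRight (⟨_, ⟨n, hN⟩, rfl⟩ : ρ.range)) _ _ fun β => rfl
  have x3 : x ^ 3 = 1 := ox ▸ pow_orderOf_eq_one x
  have h5 := H42.transfer_eq_pow_of_controls (π.comp (QuotientGroup.mk' (frattini P))) ⟨x, hx⟩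
    fun k a h => by
      by_cases hk : 3 ∣ k
      · obtain ⟨k, rfl⟩ := hk
        simp only [pow_mul, x3, hV, one_pow, mul_one, inv_mul_cancel]
        exact map_one _
      have h6 : a⁻¹ * x * a⁻¹⁻¹ ∈ (P : Subgroup G) := by
        obtain ⟨l, hl⟩ := exists_pow_eq_self_of_coprime (x := x) (n := k)
          (ox ▸ ((Nat.Prime.coprime_iff_not_dvd Nat.prime_three).2 hk).symm)
        have := pow_mem h l
        rwa [← inv_inv a, inv_inv a⁻¹, conj_pow, hl] at this
      rw [show (⟨_, h⟩ : P) = ⟨_, h6⟩ ^ k from Subtype.ext (by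
        rw [coe_pow, conj_pow, inv_inv]), map_pow]
      exact congrArg (· ^ k) (h4 _ h6)
  rw [Abelianization.commutator_subset_ker _ (hG ▸ mem_top x)] at h5
  exact h3 ((pow_eq_one_iff_of_coprime (H4.coprime_index_sylow P)).1 ⟨h5.symm, hV _⟩)

end H81
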