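import Mathlib
import Cfsg.Agent.Base
import Cfsg.Agent.Lib.ClGeo.F4

/-! Recognition of the affine group `AGL₂(4)`. -/

set_option autoImplicit false
set_option linter.style.haveILetI false
set_option linter.unusedSectionVars false

namespace H81.TP

open H30

/-- The action of the field with four elements given by a root of `X² + X + 1`. -/
def f4Hom {E : Type*} [Ring E] (h2 : ∀ a : E, a + a = 0) (ω : E) (hω : ω * ω = ω + 1) :
    F4 →+* E where
  toFun x := match x with | .o => 0 | .i => 1 | .w => ω | .v => ω + 1
  map_one' := rfl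
  map_zero' := rfl
  map_add' x y := by
    have e1 : ω + (ω + 1) = 1 := by rw [← add_assoc, h2, zero_add]
    have e2 : 1 + (ω + 1) = ω := by rw [add_comm, add_assoc, h2, add_zero]
    cases x <;> cases y <;> simp only [show ∀ a b : F4, a + b = F4.add a b from fun _ _ => rfl, F4.add]
    all_goals first | simp only [zero_add, add_zero, h2, e1, e2]; done | (rw [add_comm]; try
      simp only [e1, e2])
  map_mul' x y := by
    have e1 : ω * (ω + 1) = 1 := by rw [mul_add, hω, mul_one, add_right_comm, h2, zero_add]
    have e2 : (ω + 1) * ω = 1 := by rw [add_mul, hω, one_mul, add_right_comm, h2, zero_add]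
    have e3 : (ω + 1) * (ω + 1) = ω := by
      rw [mul_add, e2, mul_one, add_comm, add_assoc, h2, add_zero]
    cases x <;> cases y <;> simp only [show ∀ a b : F4, a * b = F4.mul a b from fun _ _ => rfl,
      F4.mul, zero_mul, mul_zero, one_mul, mul_one, hω, e1, e2, e3]

theorem card_agl_le : Nat.card ((Fin 2 → F4) ≃ᵃ[F4] (Fin 2 → F4)) ≤ 2880 ∧
    Finite ((Fin 2 → F4) ≃ᵃ[F4] (Fin 2 → F4)) := by
  have e := (Matrix.GeneralLinearGroup.toLin (n := Fin 2) (R := F4)).trans
    (LinearMap.GeneralLinearGroup.generalLinearEquiv F4 (Fin 2 → F4))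
  haveI := Finite.of_equiv _ e.toEquiv
  have hj : Function.Injective fun f : (Fin 2 → F4) ≃ᵃ[F4] (Fin 2 → F4) => (f 0, f.linear) :=
    fun f g h => AffineEquiv.ext fun x => by
      have h1 := f.map_vadd 0 x
      have h2 := g.map_vadd 0 x
      rw [vadd_eq_add, add_zero] at h1 h2
      rw [h1, h2, show f 0 = g 0 from congrArg Prod.fst h,
        show f.linear = g.linear from congrArg Prod.snd h]
  refine ⟨(Nat.card_le_card_of_injective _ hj).trans ?_, Finite.of_injective _ hj⟩
  rw [Nat.card_prod, ← Nat.card_congr e.toEquiv, Matrix.card_GL_field, Nat.card_fun, F4.natCard_eq,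
    F4.card_eq]
  simp

theorem agl_of {A : Type*} [AddCommGroup A] (hA : Nat.card A = 16) (h2 : ∀ a : A, a + a = 0)
    (ω : A →+ A) (hω : ∀ a, ω (ω a) = ω a + a) {G : Type*} [Group G] (hG : Nat.card G = 2880)
    (act : G →* Equiv.Perm A) (hi : Function.Injective act) (lin : G → A →+ A)
    (hl : ∀ g a, act g a = lin g a + act g 0) (hc : ∀ g a, lin g (ω a) = ω (lin g a)) :
    Nonempty (G ≃* ((Fin 2 → F4) ≃ᵃ[F4] (Fin 2 → F4))) := by
  haveI : Finite A := Nat.finite_of_card_ne_zero (by omega)
  let ρ : F4 →+* AddMonoid.End A := f4Hom (fun a => AddMonoidHom.ext fun x => h2 (a x)) ω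
    (AddMonoidHom.ext hω)
  letI : Module F4 A := Module.compHom A ρ
  have hr : Module.finrank F4 A = 2 := by
    have := Module.natCard_eq_pow_finrank (K := F4) (V := A)
    rw [hA, F4.natCard_eq] at this
    exact (Nat.pow_right_injective (by norm_num : 2 ≤ 4) (show 4 ^ 2 = _ from this)).symm
  let e := (Module.finBasisOfFinrankEq F4 A hr).equivFun.toAffineEquiv
  let L : G → A →ₗ[F4] A := fun g =>
    { lin g with
      map_smul' := fun c a => by
        cases c
        exacts [map_zero (lin g), rfl, hc g a, by
          show lin g (ω a + a) = ω (lin g a) + lin g a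
          rw [map_add, hc]] }
  have hL : ∀ g, Function.Bijective (L g) := fun g =>
    Finite.injective_iff_bijective.1 fun a b e => (act g).injective (by
      rw [hl, hl g b, show lin g a = lin g b from e])
  let φ : G → A ≃ᵃ[F4] A := fun g =>
    { toEquiv := act g
      linear := LinearEquiv.ofBijective (L g) (hL g)
      map_vadd' := fun p a => by
        show act g (a + p) = lin g a + act g p
        rw [hl, hl g p, map_add, add_assoc] }
  let Φ : G →* ((Fin 2 → F4) ≃ᵃ[F4] (Fin 2 → F4)) := MonoidHom.mk'
    (fun g => e.symm.trans ((φ g).trans e)) fun a b => AffineEquiv.ext fun x => by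
      show e (act (a * b) (e.symm x)) = e (act a (e.symm (e (act b (e.symm x)))))
      rw [e.symm_apply_apply, map_mul]; rfl
  have hΦ : Function.Injective Φ := fun a b h => hi (Equiv.ext fun x => e.injective (by
    have : e (act a (e.symm (e x))) = e (act b (e.symm (e x))) := congrArg (· (e x)) h
    rwa [e.symm_apply_apply] at this))
  haveI := card_agl_le.2
  exact ⟨MulEquiv.ofBijective Φ (hΦ.bijective_of_nat_card_le (hG ▸ card_agl_le.1))⟩

end H81.TP
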